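import Cfsg.Agent.Blocks.EqualDegree.Regular
import Cfsg.Agent.Blocks.TwoChars.BlockAlgebra
import Cfsg.Agent.Blocks.Defect.Induced

/-!
# The centre of a block with equal degrees

In such a block, multiplication by the primitive idempotent `f` identifies the centre with
`f k G f`, so no nonzero ideal of the centre is killed by the functional `z ↦ (z f)(1)`.  The value
of that functional at a class sum vanishes unless the class has defect at least that of the block,
so the Brauer map at the defect group is injective on the centre of the block.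
-/

set_option autoImplicit false
set_option linter.unusedSectionVars false
set_option linter.style.haveILetI false
open scoped MonoidAlgebra
open MonoidAlgebra (single)

namespace CfsgLib.Blocks.EqualDegree

open Cfsg CfsgLib.Blocks CfsgLib.Blocks.Modular CfsgLib.Blocks.TwoChars Module

universe u

variable {M : Ideal AlgInt} [hM : M.IsMaximal] {p : ℕ} [hp : Fact p.Prime] [CharP (kres M) p]
  {G : Type u} [Group G] [Fintype G] {B : Set (IrrCharacter G)} {P : Subgroup G}

/-- The centre of the block. -/
noncomputable def blockCentre (e : (kres M)[G]) : Submodule (kres M) (kres M)[G] :=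
  (Subalgebra.toSubmodule (centerIn (kres M) (⊤ : Subgroup G))).map (LinearMap.mulLeft (kres M) e)

theorem mem_blockCentre_of {e z : (kres M)[G]} (hz : z ∈ centerIn (kres M) (⊤ : Subgroup G))
    (he : e * z = z) : z ∈ blockCentre e := ⟨z, hz, he⟩

theorem blockCentre_spec {e : (kres M)[G]} (he : IsBlockIdem ⊤ e) {z : (kres M)[G]}
    (hz : z ∈ blockCentre e) : z ∈ centerIn (kres M) (⊤ : Subgroup G) ∧ e * z = z := by
  obtain ⟨y, hy, rfl⟩ := hz
  exact ⟨(centerIn (kres M) ⊤).mul_mem he.1 hy, by
    show e * (e * y) = e * y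
    rw [← mul_assoc, he.idem]⟩

theorem commute_of_mem_centre {z : (kres M)[G]} (hz : z ∈ centerIn (kres M) (⊤ : Subgroup G))
    (a : (kres M)[G]) : Commute z a :=
  (commute_of_isFixedBy (isSupportedOn_top a) hz.2).symm

/-- The centre of a block has dimension the number of its members. -/
theorem finrank_blockCentre (hB : IsPBlock M B) :
    finrank (kres M) (blockCentre (topEl M B)) = Nat.card B := by
  classical
  haveI : Fintype (ConjClasses G) := Fintype.ofFinite _
  let iso : (G → kres M) ≃ₗ[kres M] (kres M)[G] :=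
    (Finsupp.linearEquivFunOnFinite (kres M) (kres M) G).symm.trans
      (MonoidAlgebra.coeffLinearEquiv (kres M)).symm
  let cls : (ConjClasses G → kres M) →ₗ[kres M] (kres M)[G] :=
    iso.toLinearMap ∘ₗ LinearMap.funLeft (kres M) (kres M) ConjClasses.mk
  have hcls : ∀ u g, (cls u).coeff g = u (ConjClasses.mk g) := fun u g => rfl
  have hclsmat : ∀ u g, (topEl M B * cls u).coeff g =
      ((centreMatrix hB).map (res M)).mulVec u (ConjClasses.mk g) := by
    intro u g
    rw [centreMatrix_mulVec, ← sum_coeffO_class, MonoidAlgebra.coeff_mul_apply_left,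
      Finsupp.sum_fintype _ _ (fun _ => zero_mul _)]
    exact Finset.sum_congr rfl fun x _ => by rw [res_coeffO, hcls]
  set Ψ := LinearMap.mulLeft (kres M) (topEl M B) ∘ₗ cls with hΨ
  have hrange : LinearMap.range Ψ = blockCentre (topEl M B) := by
    refine le_antisymm ?_ ?_
    · rintro _ ⟨u, rfl⟩
      refine ⟨cls u, ⟨isSupportedOn_top _, fun x _ g => ?_⟩, rfl⟩
      rw [hcls, hcls, ConjClasses.mk_eq_mk_iff_isConj.mpr
        (isConj_iff.mpr ⟨x, rfl⟩ : IsConj g (x * g * x⁻¹))]
    · rintro _ ⟨y, hy, rfl⟩
      refine ⟨fun C => y.coeff C.out, ?_⟩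
      show topEl M B * cls _ = topEl M B * y
      congr 1
      refine MonoidAlgebra.ext (Finsupp.ext fun g => ?_)
      rw [hcls]
      obtain ⟨c, hc⟩ := isConj_iff.mp (ConjClasses.mk_eq_mk_iff_isConj.mp
        (Quotient.out_eq (ConjClasses.mk g)))
      conv_rhs => rw [← hc]
      exact (hy.2 c (Subgroup.mem_top c) _).symm
  have hker : LinearMap.ker Ψ = LinearMap.ker ((centreMatrix hB).map (res M)).mulVecLin := by
    ext u
    rw [LinearMap.mem_ker, LinearMap.mem_ker, Matrix.mulVecLin_apply]
    show topEl M B * cls u = 0 ↔ _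
    constructor
    · intro h
      funext C
      have := congrArg (fun a : (kres M)[G] => a.coeff C.out) h
      simp only [hclsmat] at this
      rwa [show ConjClasses.mk C.out = C from Quotient.out_eq C] at this
    · intro h; exact MonoidAlgebra.ext (Finsupp.ext fun g => by rw [hclsmat, h]; rfl)
  have h1 := LinearMap.finrank_range_add_finrank_ker Ψ
  have h2 := LinearMap.finrank_range_add_finrank_ker ((centreMatrix hB).map (res M)).mulVecLin
  have h3 := rank_map_res_eq (centreMatrix_mul_self hB) (trace_centreMatrix hB)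
  rw [hrange, hker] at h1
  rw [Matrix.rank] at h3
  omega

/-- The corner at a primitive idempotent. -/
noncomputable def corner (S : IdemSys M G) (c : Fin S.n) : Submodule (kres M) (kres M)[G] :=
  LinearMap.range (LinearMap.mulLeft (kres M) (redG M G (S.e c)) ∘ₗ
    LinearMap.mulRight (kres M) (redG M G (S.e c)))

theorem finrank_corner (S : IdemSys M G) (c : Fin S.n) :
    ((finrank (kres M) (corner S c) : ℕ) : ℂ) =
      ∑ ψ : IrrCharacter G, S.dec (ψ : G → ℂ) c ^ 2 := by
  classical
  set e := S.e c with he
  simp only [IdemSys.dec, trv_single_one]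
  rw [← sum_coeff_compress e]
  let T : (localRing M)[G] →ₗ[localRing M] (localRing M)[G] :=
    LinearMap.mulLeft (localRing M) e ∘ₗ LinearMap.mulRight (localRing M) e
  let P : Matrix G G (localRing M) :=
    LinearMap.toMatrix (MonoidAlgebra.basis G (localRing M))
      (MonoidAlgebra.basis G (localRing M)) T
  have hTT : T * T = T := by
    refine LinearMap.ext fun z => ?_
    show e * (e * (z * e) * e) = e * (z * e)
    simp only [mul_assoc]
    rw [(S.e_idem c).eq, ← mul_assoc e e, (S.e_idem c).eq]
  have hPP : P * P = P := by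
    show LinearMap.toMatrix _ _ T * LinearMap.toMatrix _ _ T = _
    rw [← LinearMap.toMatrix_mul, hTT]
  have hPent : ∀ x z : G, P x z = (e * single z 1 * e).coeff x := by
    intro x z
    simp [P, T, LinearMap.toMatrix_apply, MonoidAlgebra.basis, mul_assoc]
  have hfin := Cyclic.finrank_range_reduction (K := ℂ) (k := kres M) (f := (localRing M).subtype)
    Subtype.coe_injective (res M) hPP
  have htr : (P.map (localRing M).subtype).trace = ∑ z : G, ((e * single z 1 * e).coeff z : ℂ) := by
    simp [Matrix.trace, hPent]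
  rw [← htr, ← hfin]
  congr 1
  let L : (kres M)[G] ≃ₗ[kres M] (G → kres M) :=
    (MonoidAlgebra.coeffLinearEquiv (kres M)).trans
      (Finsupp.linearEquivFunOnFinite (kres M) (kres M) G)
  have hconj : LinearMap.range (Matrix.toLin' (P.map (res M))) =
      (corner S c).map L.toLinearMap := by
    rw [corner, ← LinearMap.range_comp,
      ← LinearMap.range_comp_of_range_eq_top (Matrix.toLin' (P.map (res M))) (LinearEquiv.range L)]
    congr 1
    refine (MonoidAlgebra.basis G (kres M)).ext fun z => funext fun x => ?_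
    have hb : (MonoidAlgebra.basis G (kres M)) z = single z 1 := by simp [MonoidAlgebra.basis]
    rw [hb]
    show ((P.map (res M)).mulVec (L (single z 1))) x =
      (redG M G e * (single z 1 * redG M G e)).coeff x
    have hL : L (single z 1) = Pi.single z 1 := by
      funext y
      show (single z (1 : kres M)).coeff y = _
      simp [Finsupp.single_apply, Pi.single_apply, eq_comm]
    rw [hL, Matrix.mulVec_single, ← mul_assoc,
      show single z (1 : kres M) = redG M G (single z 1) by rw [redG_single, map_one], ← map_mul,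
      ← map_mul, coeff_redG, ← hPent]
    simp
  rw [hconj, LinearEquiv.finrank_map_eq]

variable (S : IdemSys M G) {c : Fin S.n}

/-- An idempotent seen by no character is killed by the factors. -/
theorem image_eq_zero (hMp : IsPModular p M) {E : (localRing M)[G]} (hE : IsIdempotentElem E)
    (h : ∀ θ : IrrCharacter G, trv (θ : G → ℂ) 1 E = 0) : S.f (redG M G E) = 0 := by
  classical
  obtain ⟨r, hr, -, h0⟩ := S.exists_trv hMp hE
  have he : (fun c => (r c : ℂ)) = fun _ => 0 := S.ext_dec hMp fun θ => by
    rw [Finset.sum_congr rfl fun c _ => mul_comm _ _, ← hr _ (Chars.isClassFunction_coe θ), h]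
    simp
  exact funext fun c => h0 c (by exact_mod_cast congrFun he c)

/-- The block lives on one factor. -/
theorem image_topEl (hMp : IsPModular p M) (hB : IsPBlock M B)
    (hin : ∀ χ ∈ B, ∀ e, e ≠ c → S.dec ((χ : IrrCharacter G) : G → ℂ) e = 0)
    (hout : ∀ θ : IrrCharacter G, θ ∉ B → S.dec (θ : G → ℂ) c = 0) :
    S.f (topEl M B) = Pi.single c 1 := by
  classical
  haveI := S.ne
  set L := topLift hB with hL
  have hred : redG M G L = topEl M B := redG_topLift hB
  have hLc : ∀ a : (localRing M)[G], Commute a L := by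
    intro a
    induction a using MonoidAlgebra.induction_linear with
    | zero => exact Commute.zero_left _
    | add a a' ha ha' => exact ha.add_left ha'
    | single y t =>
      rw [show single y t = t • single y (1 : localRing M) by simp]
      exact (ofixed_topLift hMp hB y (Subgroup.mem_top y)).smul_left t
  have hLi : IsIdempotentElem L := isIdempotentElem_topLift hMp hB
  set z := S.f (topEl M B) with hz
  have hzc : ∀ X, Commute X z := by
    intro X
    obtain ⟨w, rfl⟩ := S.surj X
    exact ((commute_of_mem_centre (isBlockIdem_topEl hB).1 w).symm.map S.f : _)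
  have hval : ∀ (θ : IrrCharacter G) (a : Fin S.n), trv (θ : G → ℂ) 1 (L * S.e a) =
      if θ ∈ B then S.dec (θ : G → ℂ) a else 0 := by
    intro θ a
    rw [trv_single_one, evalFn_topLift_mul hMp (Chars.isClassFunction_coe θ) hB]
    split_ifs with h
    · rw [blockPart_eq_self h, IdemSys.dec, trv_single_one]
    · rw [blockPart_eq_zero h]; simp [evalFn]
  have hstep : ∀ a, ∀ w : MatsOf (kres M) S.d, (∀ X, Commute X w) →
      w a * Matrix.single 0 0 1 = 0 → w a = 0 := by
    intro a w hw h
    have hwa : ∀ X, Commute X (w a) := fun X => by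
      have := congrFun (hw (Pi.single a X)).eq a
      simpa [commute_iff_eq] using this
    rw [← mul_one (w a), ← Matrix.diagonal_one, ← Matrix.sum_single_eq_diagonal, Finset.mul_sum]
    refine Finset.sum_eq_zero fun i _ => ?_
    rw [show Matrix.single i i (1 : kres M) =
      Matrix.single i 0 1 * Matrix.single 0 0 1 * Matrix.single 0 i 1 by simp, ← mul_assoc,
      ← mul_assoc, ← (hwa (Matrix.single i 0 1)).eq, mul_assoc (Matrix.single i 0 1) (w a), h,
      mul_zero, zero_mul]
  funext a
  rcases eq_or_ne a c with rfl | ha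
  · rw [Pi.single_eq_same]
    have hd : IsIdempotentElem (S.e a - L * S.e a) := by
      show (S.e a - L * S.e a) * (S.e a - L * S.e a) = S.e a - L * S.e a
      rw [sub_mul, mul_sub, mul_sub, (hLi.mul_of_commute (hLc _).symm (S.e_idem a)).eq,
        (S.e_idem a).eq]
      rw [mul_assoc L, (S.e_idem a).eq, ← mul_assoc (S.e a) L, (hLc (S.e a)).eq, mul_assoc L,
        (S.e_idem a).eq]
      abel
    have h := congrFun (image_eq_zero S hMp hd fun θ => by
      rw [trv_sub, hval]
      split_ifs with hθ
      · rw [IdemSys.dec, sub_self]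
      · rw [sub_zero]; exact hout θ hθ) a
    rw [map_sub, map_sub, map_mul, map_mul, hred, S.e_image a, Pi.sub_apply, Pi.mul_apply,
      Pi.single_eq_same, Pi.zero_apply] at h
    refine (sub_eq_zero.1 (hstep a (1 - z) (fun X => (Commute.one_right X).sub_right (hzc X)) ?_)).symm
    rw [Pi.sub_apply, Pi.one_apply, sub_mul, one_mul]
    exact h
  · rw [Pi.single_eq_of_ne ha]
    have h := congrFun (image_eq_zero S hMp (hLi.mul_of_commute (hLc _).symm (S.e_idem a)) fun θ => by
      rw [hval]
      split_ifs with hθ
      · exact hin θ hθ a ha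
      · rfl) a
    rw [map_mul, map_mul, hred, S.e_image a, Pi.mul_apply, Pi.single_eq_same, Pi.zero_apply] at h
    exact hstep a z hzc h

/-- The idempotent lies in the block. -/
theorem mul_topEl_of_image {e : (kres M)[G]} (he : IsBlockIdem ⊤ e)
    (himg : S.f e = Pi.single c 1) :
    e * redG M G (S.e c) = redG M G (S.e c) := by
  haveI := S.ne
  set f := redG M G (S.e c) with hf
  have hff : IsIdempotentElem f := (S.e_idem c).map _
  have hcom : Commute e f := commute_of_mem_centre he.1 f
  have hd : IsIdempotentElem (f - e * f) := by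
    show (f - e * f) * (f - e * f) = f - e * f
    have h1 : f * (e * f) = e * f := by rw [← mul_assoc, ← hcom.eq, mul_assoc, hff.eq]
    have h2 : e * f * f = e * f := by rw [mul_assoc, hff.eq]
    have h3 : e * f * (e * f) = e * f := by rw [mul_assoc, h1, ← mul_assoc, he.idem]
    rw [sub_mul, mul_sub, mul_sub, hff.eq, h1, h2, h3, sub_self, sub_zero]
  refine (sub_eq_zero.1 (eq_zero_of_isIdempotentElem_of_isNilpotent hd (S.nil _ ?_))).symm
  rw [map_sub, map_mul, himg, hf, S.e_image c, ← Pi.single_mul, one_mul, sub_self]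

/-- An element of the centre of the block killed by the idempotent is zero. -/
theorem eq_zero_of_mul_idem {e z : (kres M)[G]} (himg : S.f e = Pi.single c 1)
    (hz : z ∈ centerIn (kres M) (⊤ : Subgroup G)) (hez : e * z = z)
    (h0 : z * redG M G (S.e c) = 0) : z = 0 := by
  classical
  haveI := S.ne
  choose X hX using fun i : Fin (S.d c) => S.surj (Pi.single c (Matrix.single i 0 (1 : kres M)))
  choose Y hY using fun i : Fin (S.d c) => S.surj (Pi.single c (Matrix.single 0 i (1 : kres M)))
  set w := ∑ i, X i * redG M G (S.e c) * Y i with hw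
  have hfw : S.f (e - w) = 0 := by
    rw [map_sub, hw, map_sum]
    simp only [map_mul, hX, hY, S.e_image c, ← Pi.single_mul, Matrix.single_mul_single_same,
      mul_one]
    rw [himg, sub_eq_zero]
    funext a
    rcases eq_or_ne a c with rfl | ha
    · rw [Finset.sum_apply]
      simp only [Pi.single_eq_same]
      rw [← Matrix.diagonal_one, ← Matrix.sum_single_eq_diagonal]
    · rw [Pi.single_eq_of_ne ha, Finset.sum_apply]
      exact (Finset.sum_eq_zero fun i _ => Pi.single_eq_of_ne ha _).symm
  obtain ⟨n, hn⟩ := S.nil _ hfw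
  have hzw : z * (e - w) = z := by
    rw [mul_sub, (commute_of_mem_centre hz e).eq, hez, hw, Finset.mul_sum,
      Finset.sum_eq_zero fun i _ => ?_, sub_zero]
    rw [← mul_assoc, ← mul_assoc, (commute_of_mem_centre hz (X i)).eq, mul_assoc (X i), h0,
      mul_zero, zero_mul]
  have key : ∀ j : ℕ, z * (e - w) ^ j = z := by
    intro j
    induction j with
    | zero => rw [pow_zero, mul_one]
    | succ j ih => rw [pow_succ, ← mul_assoc, ih, hzw]
  rw [← key n, hn, mul_zero]

/-- **No ideal of the centre is killed by the functional.** -/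
theorem eq_zero_of_functional (hB : IsPBlock M B) (himg : S.f (topEl M B) = Pi.single c 1)
    (hone : ∀ χ ∈ B, S.dec ((χ : IrrCharacter G) : G → ℂ) c = 1)
    (hout : ∀ θ : IrrCharacter G, θ ∉ B → S.dec (θ : G → ℂ) c = 0) {z : (kres M)[G]}
    (hz : z ∈ centerIn (kres M) (⊤ : Subgroup G)) (hez : topEl M B * z = z)
    (h : ∀ y ∈ centerIn (kres M) (⊤ : Subgroup G),
      (z * y * redG M G (S.e c)).coeff 1 = 0) : z = 0 := by
  classical
  haveI : FiniteDimensional (kres M) (kres M)[G] :=
    Module.Finite.of_basis (MonoidAlgebra.basis G (kres M))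
  have he := isBlockIdem_topEl hB (M := M)
  set f := redG M G (S.e c) with hf
  have hff : f * f = f := ((S.e_idem c).map _).eq
  set A := blockCentre (topEl M B) with hA
  have hsub : A.map (LinearMap.mulRight (kres M) f) ≤ corner S c := by
    rintro _ ⟨y, hy, rfl⟩
    obtain ⟨hyc, -⟩ := blockCentre_spec he hy
    refine ⟨y, ?_⟩
    show f * (y * f) = y * f
    rw [← mul_assoc, ← (commute_of_mem_centre hyc f).eq, mul_assoc, hff]
  have hk : finrank (kres M) (corner S c) = Nat.card B := by
    have h1 := finrank_corner S c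
    have h2 : ∑ ψ : IrrCharacter G, S.dec (ψ : G → ℂ) c ^ 2 = (Nat.card B : ℂ) := by
      rw [← Finset.sum_subset (Finset.subset_univ B.toFinite.toFinset) fun θ _ hθ => by
          rw [hout θ fun h => hθ (B.toFinite.mem_toFinset.2 h), zero_pow two_ne_zero],
        Finset.sum_congr rfl fun χ hχ => by
          rw [hone χ (B.toFinite.mem_toFinset.1 hχ), one_pow],
        Finset.sum_const, nsmul_eq_mul, mul_one, Nat.card_coe_set_eq,
        Set.ncard_eq_toFinset_card B B.toFinite]
    rw [h2] at h1
    exact_mod_cast h1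
  have hinj : Function.Injective ((LinearMap.mulRight (kres M) f).domRestrict A) := by
    rw [← LinearMap.ker_eq_bot, LinearMap.ker_eq_bot']
    intro y hy
    obtain ⟨hyc, hey⟩ := blockCentre_spec he y.2
    exact Subtype.ext (eq_zero_of_mul_idem S himg hyc hey hy)
  have heq : A.map (LinearMap.mulRight (kres M) f) = corner S c := by
    refine Submodule.eq_of_le_of_finrank_le hsub (le_of_eq ?_)
    rw [hk, ← finrank_blockCentre hB, ← hA, ← LinearMap.finrank_range_of_inj hinj,
      LinearMap.range_domRestrict]
  have hcyc : ∀ a b : (kres M)[G], (a * b).coeff 1 = (b * a).coeff 1 := by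
    intro a b
    rw [MonoidAlgebra.coeff_mul_apply_left, MonoidAlgebra.coeff_mul_apply_right,
      Finsupp.sum_fintype _ _ (fun _ => zero_mul _), Finsupp.sum_fintype _ _ (fun _ => mul_zero _)]
    refine Finset.sum_congr rfl fun x _ => ?_
    rw [mul_one, one_mul, mul_comm]
  refine eq_zero_of_mul_idem S himg hz hez (MonoidAlgebra.ext (Finsupp.ext fun g => ?_))
  set b := single g⁻¹ (1 : kres M) with hb
  obtain ⟨y, hy, hyb⟩ : f * (b * f) ∈ A.map (LinearMap.mulRight (kres M) f) :=
    heq ▸ ⟨b, rfl⟩
  have hyb' : y * f = f * (b * f) := hyb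
  have h1 : (z * f).coeff g = (z * f * b).coeff 1 := by
    rw [hb, MonoidAlgebra.coeff_mul_single_apply, mul_one, inv_inv, one_mul]
  rw [h1, show z * f * b = z * f * (f * b) by rw [mul_assoc z f (f * b), ← mul_assoc f f b, hff,
    mul_assoc], hcyc, show f * b * (z * f) = z * (f * (b * f)) by
      rw [← mul_assoc (f * b), ← (commute_of_mem_centre hz (f * b)).eq]; simp only [mul_assoc],
    ← hyb', ← mul_assoc, h y (blockCentre_spec he hy).1]
  rfl

/-- The functional at a class sum. -/
theorem coeff_classSum_mul_eq_zero (hMp : IsPModular p M) (hB : IsPBlock M B)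
    (hone : ∀ χ ∈ B, S.dec ((χ : IrrCharacter G) : G → ℂ) c = 1)
    (hout : ∀ θ : IrrCharacter G, θ ∉ B → S.dec (θ : G → ℂ) c = 0)
    (hreg : ∀ χ ∈ B, ∀ s : G, IsPRegular p s →
      ((χ : IrrCharacter G) : G → ℂ) s = S.phi p c s)
    (hcard : Nat.card B = Nat.card P) {x : G}
    (hx : (Nat.card (Subgroup.centralizer ({x} : Set G))).factorization p <
      (Nat.card P).factorization p) :
    (classSumIn (kres M) ⊤ x * redG M G (S.e c)).coeff 1 = 0 := by
  classical
  set E := S.e c with hE
  set σ : localRing M := ∑ g : G, if IsConj x g then E.coeff g⁻¹ else 0 with hσ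
  have hval : (classSumIn (kres M) ⊤ x * redG M G E).coeff 1 = res M σ := by
    rw [MonoidAlgebra.coeff_mul_apply_left, Finsupp.sum_fintype _ _ (fun _ => zero_mul _), hσ,
      map_sum]
    refine Finset.sum_congr rfl fun g _ => ?_
    rw [coeff_classSumIn, mul_one, coeff_redG]
    by_cases hg : IsConj x g
    · obtain ⟨a, ha⟩ := isConj_iff.1 hg
      rw [if_pos hg, if_pos ⟨a, Subgroup.mem_top a, ha⟩, one_mul]
    · rw [if_neg hg, if_neg fun ⟨a, _, ha⟩ => hg (isConj_iff.2 ⟨a, ha⟩), zero_mul, map_zero]
  rw [hval, res_eq_zero_iff]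
  set C := Subgroup.centralizer ({x} : Set G) with hC
  have hC0 : (Nat.card C : ℂ) ≠ 0 := Nat.cast_ne_zero.2 Nat.card_pos.ne'
  have hkey : ∑ θ : IrrCharacter G, S.dec (θ : G → ℂ) c * (θ : G → ℂ) x =
      (Nat.card C : ℂ) * (σ : ℂ) := by
    simp only [IdemSys.dec, trv_single_one, evalFn, Finset.sum_mul]
    rw [Finset.sum_comm, hσ, AddSubmonoidClass.coe_finsetSum, Finset.mul_sum]
    refine (Fintype.sum_equiv (Equiv.inv G) _ _ fun g => ?_).symm
    simp only [Equiv.inv_apply, mul_assoc, ← Finset.mul_sum]
    have h := Chars.sum_irr_mul_conj x g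
    rw [Finset.sum_congr rfl fun θ _ => by
      rw [← Chars.map_inv_eq_conj (Chars.isCharacter_coe θ), mul_comm]] at h
    rw [h]
    by_cases hg : IsConj x g
    · rw [if_pos hg, if_pos hg, mul_comm]
    · rw [if_neg hg, if_neg hg, mul_zero]
      simp
  by_cases hxr : IsPRegular p x
  swap
  · rw [sum_dec_mul_singular S hMp c hxr] at hkey
    rw [(mul_eq_zero.1 hkey.symm).resolve_left hC0]
    exact memLocalIdeal_zero
  obtain ⟨χ, hχ⟩ := nonempty_of_isPBlock hB
  have hsum : ∑ θ : IrrCharacter G, S.dec (θ : G → ℂ) c * (θ : G → ℂ) x =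
      (Nat.card P : ℂ) * (χ : G → ℂ) x := by
    rw [← Finset.sum_subset (Finset.subset_univ B.toFinite.toFinset) fun θ _ hθ => by
        rw [hout θ fun h => hθ (B.toFinite.mem_toFinset.2 h), zero_mul],
      Finset.sum_congr rfl fun θ hθ => by
        rw [hone θ (B.toFinite.mem_toFinset.1 hθ), one_mul,
          hreg θ (B.toFinite.mem_toFinset.1 hθ) x hxr, ← hreg χ hχ x hxr],
      Finset.sum_const, nsmul_eq_mul, ← hcard, Nat.card_coe_set_eq,
      Set.ncard_eq_toFinset_card B B.toFinite]
  rw [hsum] at hkey
  rw [show (σ : ℂ) = (Nat.card P : ℂ) / (Nat.card C : ℂ) * (χ : G → ℂ) x by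
    rw [div_mul_eq_mul_div, eq_div_iff hC0, hkey, mul_comm]]
  exact memLocalIdeal_mul_right
    (memLocalIdeal_natCast_div hMp Nat.card_pos.ne' Nat.card_pos.ne' hx)
    (HeightZero.memLocalRing_apply (Chars.isCharacter_coe χ) x)

/-- **The Brauer map is injective on the centre of the block.** -/
theorem eq_zero_of_brTrunc_eq_zero (hMp : IsPModular p M) (hB : IsPBlock M B)
    (hD : IsDefectGroup p M B P) (hPp : IsPGroup p P) {d : ℕ}
    (hdeg : ∀ χ ∈ B, charDegree (χ : G → ℂ) = d)
    (h0 : ∀ χ ∈ B, blockHeight p B ((χ : IrrCharacter G) : G → ℂ) = 0)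
    {z : (kres M)[G]} (hz : z ∈ centerIn (kres M) (⊤ : Subgroup G))
    (hez : topEl M B * z = z) (hbr : brTrunc P z = 0) : z = 0 := by
  classical
  obtain ⟨S⟩ := exists_idemSys (M := M) (G := G)
  obtain ⟨c, hone, hout, hoth, hreg, hcard⟩ := exists_column S hMp hB hD hPp hdeg h0
  have he := isBlockIdem_topEl hB (M := M)
  have hDi := (isDefectGroup_topEl_iff hB P).mp hD
  refine eq_zero_of_functional S hB (image_topEl S hMp hB hoth hout) hone hout hz hez fun y hy => ?_
  set w := z * y with hw
  have hwc : w ∈ centerIn (kres M) (⊤ : Subgroup G) := (centerIn (kres M) ⊤).mul_mem hz hy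
  have hwe : topEl M B * w = w := by rw [hw, ← mul_assoc, hez]
  have hwbr : brTrunc P w = 0 := by
    rw [hw, brTrunc_mul hPp (hz.2.mono le_top) (hy.2.mono le_top), hbr, zero_mul]
  have hsmall : ∀ x : G, w.coeff x ≠ 0 →
      (Nat.card (Subgroup.centralizer ({x} : Set G))).factorization p <
        (Nat.card P).factorization p := by
    intro x hx
    by_contra hge
    rw [not_lt] at hge
    let Q' : Sylow p (Subgroup.centralizer ({x} : Set G)) := default
    set Q := (Q' : Subgroup (Subgroup.centralizer ({x} : Set G))).map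
      (Subgroup.centralizer ({x} : Set G)).subtype with hQ
    have hQp : IsPGroup p Q := Q'.2.map _
    have hQx : x ∈ Subgroup.centralizer (Q : Set G) := by
      rw [Subgroup.mem_centralizer_iff]
      rintro q ⟨q', -, rfl⟩
      exact Subgroup.mem_centralizer_singleton_iff.1 q'.2
    have hne : brTrunc Q (topEl M B) ≠ 0 := by
      intro h
      apply hx
      rw [← coeff_brTrunc_of_mem w hQx, ← hwe,
        brTrunc_mul hQp (he.1.2.mono le_top) (hwc.2.mono le_top), h, zero_mul]
      simp
    obtain ⟨a, -, ha⟩ := (brTrunc_ne_zero_iff he hDi le_top hQp).mp hne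
    have hcQ : Nat.card P ≤ Nat.card Q := by
      rw [pGroup_card_factorization hp.out hQp, pGroup_card_factorization hp.out hPp]
      refine Nat.pow_le_pow_right hp.out.pos (hge.trans (le_of_eq ?_))
      rw [hQ, ← Nat.card_congr ((Q' : Subgroup (Subgroup.centralizer ({x} : Set G))).equivMapOfInjective
        _ (Subgroup.subtype_injective _)).toEquiv, Q'.card_eq_multiplicity,
        Nat.factorization_pow, Finsupp.smul_apply, hp.out.factorization_self, smul_eq_mul, mul_one]
    have heq : Q.map (MulAut.conj a).toMonoidHom = P :=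
      Subgroup.eq_of_le_of_card_ge ha (by rw [card_map_conj]; exact hcQ)
    have hax : a * x * a⁻¹ ∈ Subgroup.centralizer (P : Set G) := by
      rw [← heq, mem_centralizer_map_conj_iff,
        show a⁻¹ * (a * x * a⁻¹) * a = x by group]
      exact hQx
    apply hx
    rw [← hwc.2 a (Subgroup.mem_top a) x, ← coeff_brTrunc_of_mem w hax, hwbr]
    simp
  let l : (kres M)[G] →ₗ[kres M] kres M :=
    Finsupp.lapply 1 ∘ₗ (MonoidAlgebra.coeffLinearEquiv (kres M)).toLinearMap ∘ₗ
      LinearMap.mulRight (kres M) (redG M G (S.e c))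
  show l w = 0
  refine LinearMap.mem_ker.1 (Submodule.span_le.2 ?_ (mem_span_classSumIn hwc))
  rintro _ ⟨x, -, hx, rfl⟩
  exact coeff_classSum_mul_eq_zero S hMp hB hone hout hreg hcard (hsmall x hx)

end CfsgLib.Blocks.EqualDegree
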