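import Cfsg.Agent.Blocks.EqualDegree.Centre
import Cfsg.Agent.Blocks.Defect.Nilpotent
import Cfsg.Agent.Blocks.Defect.CentralExt
import Cfsg.Agent.Blocks.Defect.LocalBlocks

/-!
# Equal degrees and trivial inertia

With an abelian defect group `P` the centre of the block is carried injectively into the centre
of the block of `C(P)`, whose dimension is also `|P|`.  So the stabilizer of that block fixes all
of its centre, in particular the translates of its idempotent by `P`, and so centralizes `P`.
-/

set_option autoImplicit false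
set_option linter.unusedSectionVars false
set_option linter.style.haveILetI false
open scoped MonoidAlgebra
open MonoidAlgebra (single)

namespace CfsgLib.Blocks.EqualDegree

open Cfsg CfsgLib.Blocks Module

universe u

variable {M : Ideal AlgInt} [hM : M.IsMaximal] {p : ℕ} [hp : Fact p.Prime] [CharP (kres M) p]
  {G : Type u} [Group G] [Fintype G] {B : Set (IrrCharacter G)} {P : Subgroup G}

/-- A nonzero idempotent is not fixed by a nontrivial central translate of `p`-power order. -/
theorem eq_one_of_single_mul {g : (kres M)[G]} (hne : g ≠ 0) (hg : g * g = g) {v : G}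
    (hv : ∃ n : ℕ, v ^ p ^ n = 1) (hcomm : Commute (single v (1 : kres M)) g)
    (hfix : single v (1 : kres M) * g = g) : v = 1 := by
  classical
  by_contra hv1
  apply hne
  set U := Subgroup.zpowers v
  have hUp : IsPGroup p U := by
    rintro ⟨_, i, rfl⟩
    obtain ⟨n, hn⟩ := hv
    refine ⟨n, Subtype.ext ?_⟩
    show (v ^ i) ^ p ^ n = 1
    rw [← zpow_natCast, ← zpow_mul, mul_comm, zpow_mul, zpow_natCast, hn, one_zpow]
  have hl : ∀ (u : U) (x : G), g.coeff ((u : G) * x) = g.coeff x := by
    rintro ⟨u, hu⟩ x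
    obtain ⟨i, rfl⟩ := Subgroup.mem_zpowers_iff.1 hu
    show g.coeff (v ^ i * x) = g.coeff x
    clear hu
    have h1 : ∀ x, g.coeff (v * x) = g.coeff x := fun x => by
      conv_lhs => rw [← hfix]
      rw [MonoidAlgebra.coeff_single_mul_apply, one_mul, inv_mul_cancel_left]
    have h2 : ∀ x, g.coeff (v⁻¹ * x) = g.coeff x := fun x => by
      rw [← h1 (v⁻¹ * x), mul_inv_cancel_left]
    induction i with
    | zero => simp
    | succ i ih => rw [add_comm, zpow_one_add, mul_assoc, h1, ih]
    | pred i ih =>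
      rw [sub_eq_neg_add, zpow_add, zpow_neg_one, mul_assoc, h2, ih]
  have hr : ∀ (u : U) (x : G), g.coeff (x * (u : G)) = g.coeff x := by
    rintro ⟨u, hu⟩ x
    obtain ⟨i, rfl⟩ := Subgroup.mem_zpowers_iff.1 hu
    show g.coeff (x * v ^ i) = g.coeff x
    clear hu
    have hfix' : g * single v (1 : kres M) = g := by rw [← hcomm.eq, hfix]
    have h1 : ∀ x, g.coeff (x * v) = g.coeff x := fun x => by
      conv_lhs => rw [← hfix']
      rw [MonoidAlgebra.coeff_mul_single_apply, mul_one, mul_inv_cancel_right]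
    have h2 : ∀ x, g.coeff (x * v⁻¹) = g.coeff x := fun x => by
      rw [← h1 (x * v⁻¹), inv_mul_cancel_right]
    induction i with
    | zero => simp
    | succ i ih => rw [zpow_add_one, ← mul_assoc, h1, ih]
    | pred i ih => rw [zpow_sub_one, ← mul_assoc, h2, ih]
  refine MonoidAlgebra.ext (Finsupp.ext fun y => ?_)
  rw [← hg, MonoidAlgebra.coeff_mul_apply_left, Finsupp.sum_fintype _ _ (fun _ => zero_mul _)]
  letI : MulAction U G :=
    { smul := fun u x => x * (u : G)⁻¹
      one_smul := fun x => by show x * _ = x; simp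
      mul_smul := fun a b x => by
        show x * ((a * b : U) : G)⁻¹ = x * (b : G)⁻¹ * (a : G)⁻¹
        rw [Subgroup.coe_mul, mul_inv_rev, mul_assoc] }
  refine sum_eq_zero_of_invariant hUp (fun x => g.coeff x * g.coeff (x⁻¹ * y)) ?_ ?_
  · intro u x
    show g.coeff (x * (u : G)⁻¹) * g.coeff ((x * (u : G)⁻¹)⁻¹ * y) = _
    rw [← Subgroup.coe_inv, hr, mul_inv_rev, Subgroup.coe_inv, inv_inv, mul_assoc, hl]
  · intro x hx
    refine absurd ?_ hv1
    have h : x * v⁻¹ = x := hx ⟨v, Subgroup.mem_zpowers v⟩
    simpa using h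

/-- **Equal degrees make the inertia trivial.** -/
theorem pairStab_le_centralizer (hMp : IsPModular p M) (hB : IsPBlock M B)
    (hD : IsDefectGroup p M B P) (hab : ∀ x ∈ P, ∀ y ∈ P, x * y = y * x) {d : ℕ}
    (hdeg : ∀ χ ∈ B, charDegree (χ : G → ℂ) = d)
    (h0 : ∀ χ ∈ B, blockHeight p B ((χ : IrrCharacter G) : G → ℂ) = 0) {g : (kres M)[G]}
    (hmax : IsMaxPairIdem p ⊤ (topEl M B) P g) :
    pairStab ⊤ P g ≤ Subgroup.centralizer (P : Set G) := by
  classical
  haveI : FiniteDimensional (kres M) (kres M)[G] :=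
    Module.Finite.of_basis (MonoidAlgebra.basis G (kres M))
  set C := Subgroup.centralizer (P : Set G) with hC
  have he := isBlockIdem_topEl hB (M := M)
  have hPp : IsPGroup p P := hmax.1.1.1
  have hPC : P ≤ C := fun x hx =>
    Subgroup.mem_centralizer_iff.mpr fun q hq => hab q hq x hx
  have hgb : IsBlockIdem C g := by
    have := hmax.1.1.2.2
    rwa [top_inf_eq] at this
  obtain ⟨S⟩ := Modular.exists_idemSys (M := M) (G := G)
  obtain ⟨-, -, -, -, -, hkB⟩ := exists_column S hMp hB hD hPp hdeg h0
  -- the block of the centralizer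
  obtain ⟨b, hb, hbg⟩ := exists_subEl_eq (M := M) hgb
  have hbD : IsDefectGroup p M b (P.subgroupOf C) := by
    rw [isDefectGroup_subgroupOf_iff hPC hb, hbg]
    have h := (isDefectGroupIdem_centralizer_iff he hmax (PairLE.refl _ _ _)).mp fun x _ => by
      rw [← hC, inf_eq_left.mpr hPC]
      exact Subgroup.card_le_of_le inf_le_left
    rwa [← hC, inf_eq_left.mpr hPC] at h
  have hkb : Nat.card b = Nat.card P := by
    have hcen : P.subgroupOf C ⊔ Subgroup.centralizer (P.subgroupOf C : Set C) = ⊤ := by
      rw [eq_top_iff]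
      intro x _
      refine Subgroup.mem_sup_right (Subgroup.mem_centralizer_iff.mpr fun y hy => Subtype.ext ?_)
      exact Subgroup.mem_centralizer_iff.mp x.2 (y : G) hy
    obtain ⟨θ, -, E, hE, hbE, -, -⟩ := CentralExt.exists_param p M hMp (P.subgroupOf C)
      (hPp.comap_of_injective C.subtype C.subtype_injective) hcen b hb hbD
    rw [hbE, Nat.card_range_of_injective hE, Chars.card_irrCharacter]
    rw [← Nat.card_congr (Subgroup.subgroupOfEquivOfLe hPC).toEquiv]
    refine (Nat.card_congr (Equiv.ofBijective ConjClasses.mk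
      ⟨fun x y h => ?_, ConjClasses.mk_surjective⟩)).symm
    obtain ⟨a, ha⟩ := isConj_iff.1 (ConjClasses.mk_eq_mk_iff_isConj.1 h)
    have hax : a * x = x * a := Subtype.ext (Subtype.ext (hab _ a.2 _ x.2))
    rw [← ha, hax, mul_inv_cancel_right]
  haveI : Fintype C := Fintype.ofFinite C
  set ι := (emb (kres M) C.subtype).toLinearMap with hι
  set W := (blockCentre (topEl M b)).map ι with hW
  have hιinj : Function.Injective ι := emb_injective C.subtype_injective
  have hWdim : finrank (kres M) W = Nat.card P := by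
    rw [hW, ← (Submodule.equivMapOfInjective ι hιinj _).finrank_eq, finrank_blockCentre hb, hkb]
  have hembb : ι (topEl M b) = g := by
    rw [← hbg, hι, AlgHom.toLinearMap_apply, topEl, blockEl, ← emb_comp]
    rfl
  have hmemW : ∀ a, a ∈ centerIn (kres M) C → g * a = a → a ∈ W := by
    intro a ha hga
    obtain ⟨y, hy, rfl⟩ := exists_emb_center_eq C.subtype_injective (by rwa [Subgroup.range_subtype])
    refine ⟨y, mem_blockCentre_of ⟨isSupportedOn_top y, fun s _ x =>
      (mem_center_iff_coeff y).1 hy x s⟩ (hιinj ?_), rfl⟩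
    rw [hι, AlgHom.toLinearMap_apply, map_mul, AlgHom.toLinearMap_apply]
    rw [hι, AlgHom.toLinearMap_apply] at hembb
    rw [hembb, hga]
  -- the map from the centre of the block
  set A := blockCentre (topEl M B) with hA
  let L : (kres M)[G] →ₗ[kres M] (kres M)[G] :=
    LinearMap.mulRight (kres M) g ∘ₗ brTrunc P
  have hbr : ∀ z ∈ A, brTrunc P z ∈ centerIn (kres M) C := by
    intro z hz
    have h := brTrunc_mem_centerIn (Q := P) (blockCentre_spec he hz).1
    rwa [top_inf_eq] at h
  have hLW : A.map L ≤ W := by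
    rintro _ ⟨z, hz, rfl⟩
    refine hmemW _ ((centerIn (kres M) C).mul_mem (hbr z hz) hgb.1) ?_
    show g * (brTrunc P z * g) = brTrunc P z * g
    rw [← mul_assoc, (commute_centerIn hgb.1 (hbr z hz)).eq, mul_assoc, hgb.idem]
  have hLinj : Function.Injective (L.domRestrict A) := by
    rw [← LinearMap.ker_eq_bot, LinearMap.ker_eq_bot']
    intro z hz
    obtain ⟨hzc, hez⟩ := blockCentre_spec he z.2
    have hz' : brTrunc P (z : (kres M)[G]) * g = 0 := hz
    refine Subtype.ext (eq_zero_of_brTrunc_eq_zero hMp hB hD hPp hdeg h0 hzc hez ?_)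
    by_contra hne
    obtain ⟨g', hg', hne'⟩ := exists_block_mul_ne_zero (H := C) hne
    have hcomm : brTrunc P (topEl M B) * brTrunc P (z : (kres M)[G]) = brTrunc P (z : (kres M)[G]) := by
      rw [← brTrunc_mul hPp (he.1.2.mono le_top) (hzc.2.mono le_top), hez]
    have htr : brTrunc P (topEl M B) ∈ centerIn (kres M) C := by
      have h := brTrunc_mem_centerIn (Q := P) he.1
      rwa [top_inf_eq] at h
    have hover : BrOver P g' (topEl M B) := by
      have hi : brTrunc P (topEl M B) * brTrunc P (topEl M B) = brTrunc P (topEl M B) := by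
        rw [← brTrunc_mul hPp (he.1.2.mono le_top) (he.1.2.mono le_top), he.idem]
      rcases hg'.2.2.2 _ htr hi with h | h
      · refine absurd ?_ hne'
        rw [← hcomm, ← mul_assoc, (commute_centerIn hg'.1 htr).eq, h, zero_mul]
      · exact h
    have hDi := (isDefectGroup_topEl_iff hB P).mp hD
    obtain ⟨n, hn, hgn⟩ := hDi.exists_conjA_eq he
      (inf_le_inf_left ⊤ (Subgroup.centralizer_le_normalizer _))
      (inf_normalizer_le_normalizer_inf_centralizer ⊤ P)
      (by rw [top_inf_eq]; exact hgb) (by rw [top_inf_eq]; exact hg') hmax.1.2 hover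
    apply hne'
    have hfix : Blocks.conjA n (brTrunc P (z : (kres M)[G])) = brTrunc P (z : (kres M)[G]) := by
      rw [conjA_brTrunc, map_conj_eq_self_of_mem_normalizer hn.2,
        isFixedBy_iff_conjA.mp hzc.2 n (Subgroup.mem_top n)]
    rw [← hgn, ← hfix, ← map_mul, (commute_centerIn hgb.1 (hbr _ z.2)).eq, hz', map_zero]
  have hAW : A.map L = W := by
    refine Submodule.eq_of_le_of_finrank_le hLW (le_of_eq ?_)
    rw [hWdim, ← hkB, ← finrank_blockCentre hB, ← hA, ← LinearMap.finrank_range_of_inj hLinj,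
      LinearMap.range_domRestrict]
  -- the translates by `P`
  intro x hx
  obtain ⟨⟨-, hxN⟩, hxg⟩ := mem_pairStab.mp hx
  rw [Subgroup.mem_centralizer_iff]
  intro u hu
  have huC : single u (1 : kres M) ∈ centerIn (kres M) C := by
    refine ⟨IsSupportedOn.single (hPC hu) 1, isFixedBy_iff_commute.mpr fun s hs => ?_⟩
    show _ * _ = _ * _
    rw [MonoidAlgebra.single_mul_single, MonoidAlgebra.single_mul_single,
      ← Subgroup.mem_centralizer_iff.mp hs u hu]
  have hmem : single u (1 : kres M) * g ∈ W := by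
    refine hmemW _ ((centerIn (kres M) C).mul_mem huC hgb.1) ?_
    rw [← mul_assoc, (commute_centerIn hgb.1 huC).eq, mul_assoc, hgb.idem]
  rw [← hAW] at hmem
  obtain ⟨z, hz, hzu⟩ := hmem
  have hzu' : brTrunc P z * g = single u (1 : kres M) * g := hzu
  have hconj := congrArg (Blocks.conjA x) hzu'
  rw [map_mul, map_mul, hxg, conjA_brTrunc, map_conj_eq_self_of_mem_normalizer hxN,
    isFixedBy_iff_conjA.mp (blockCentre_spec he hz).1.2 x (Subgroup.mem_top x), hzu',
    show Blocks.conjA x (single u (1 : kres M)) = single (x * u * x⁻¹) 1 by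
      refine MonoidAlgebra.ext (Finsupp.ext fun y => ?_)
      rw [coeff_conjA]
      simp only [MonoidAlgebra.coeff_single, Finsupp.single_apply]
      exact if_congr ⟨fun h => by rw [h]; group, fun h => by rw [← h]; group⟩ rfl rfl] at hconj
  set v := u⁻¹ * (x * u * x⁻¹) with hv
  have hxuP : x * u * x⁻¹ ∈ P := (Subgroup.mem_normalizer_iff.mp hxN u).mp hu
  have hvP : v ∈ P := P.mul_mem (P.inv_mem hu) hxuP
  have hfix : single v (1 : kres M) * g = g := by
    have h := congrArg (fun a => single u⁻¹ (1 : kres M) * a) hconj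
    simp only [← mul_assoc, MonoidAlgebra.single_mul_single, one_mul, inv_mul_cancel] at h
    rw [← MonoidAlgebra.one_def, one_mul] at h
    rw [hv, ← mul_assoc, ← mul_assoc]
    exact h.symm
  obtain ⟨n, hn⟩ := hPp ⟨v, hvP⟩
  have h1 := eq_one_of_single_mul hgb.ne_zero hgb.idem ⟨n, by simpa using congrArg Subtype.val hn⟩
    (commute_of_isFixedBy (IsSupportedOn.single (hPC hvP) 1) hgb.1.2) hfix
  rw [hv, inv_mul_eq_one] at h1
  calc u * x = x * u * x⁻¹ * x := by rw [← h1]
    _ = x * u := by group

end CfsgLib.Blocks.EqualDegree
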