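import Cfsg.Agent.Blocks.EqualDegree.Inertia
import Cfsg.Agent.Blocks.Star.Nilpotent

/-!
# Equal degrees and nilpotency, for abelian defect groups
-/

set_option autoImplicit false
set_option linter.style.haveILetI false
open scoped MonoidAlgebra

namespace CfsgLib.Blocks.EqualDegree

open Cfsg CfsgLib.Blocks

universe u

variable {G : Type u} [Group G] [Finite G] {p : ℕ} [Fact p.Prime] {M : Ideal AlgInt}
  {B : Set (IrrCharacter G)} {P : Subgroup G}

/-- **A block with abelian defect group and equal degrees, all of height zero, is nilpotent.** -/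
theorem isNilpotentBlock_of_degrees (hMp : IsPModular p M) (hB : IsPBlock M B)
    (hD : IsDefectGroup p M B P) (hab : ∀ x ∈ P, ∀ y ∈ P, x * y = y * x) {d : ℕ}
    (hdeg : ∀ χ ∈ B, charDegree (χ : G → ℂ) = d)
    (h0 : ∀ χ ∈ B, blockHeight p B ((χ : IrrCharacter G) : G → ℂ) = 0) :
    IsNilpotentBlock p M B := by
  haveI := hMp.2.1
  haveI : CharP (kres M) p := charP_kres hMp
  haveI := Fintype.ofFinite G
  have hE := isBlockIdem_topEl (M := M) hB
  obtain ⟨g, hmax⟩ := exists_maxPair_of_defectGroup hE ((isDefectGroup_topEl_iff hB P).mp hD)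
  have hst := pairStab_le_centralizer hMp hB hD hab hdeg h0 hmax
  rw [isNilpotentIdem_top_iff hB]
  refine isNilpotentIdem_of_carries hE hmax fun Q x hc hmap _ => ?_
  obtain ⟨f, hf, hfx⟩ := hc
  rw [hmap] at hfx
  have hy : x ∈ pairStab ⊤ Q f := mem_pairStab.mpr
    ⟨⟨trivial, mem_normalizer_of_map_conj_le hmap.le⟩, PairLE.unique hmax.1.1 hfx hf⟩
  obtain ⟨t, ht, c, hcC, rfl⟩ := exists_mul_of_abelian hE hmax hab hf hy
  exact Subgroup.mul_mem _ (Subgroup.centralizer_le hf.le (hst ht.1)) hcC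

/-- **In a nilpotent block with abelian defect group the degrees are equal.** -/
theorem exists_degree_of_nilpotent (hMp : IsPModular p M)
    (hnil : IsNilpotentBlock p M B) (hD : IsDefectGroup p M B P)
    (hab : ∀ x ∈ P, ∀ y ∈ P, x * y = y * x) :
    ∃ d : ℕ, ∀ χ ∈ B, charDegree ((χ : IrrCharacter G) : G → ℂ) = d := by
  haveI := hMp.2.1
  haveI : CharP (kres M) p := charP_kres hMp
  haveI := Fintype.ofFinite G
  haveI := Fintype.ofFinite P
  obtain ⟨χ₀, hχ₀, h00⟩ := HeightZero.exists_height_zero (p := p) (M := M) hnil.1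
  obtain ⟨Φ, hΦ⟩ := exists_equiv_of_nilpotent hMp hnil hD hχ₀ h00
  refine ⟨charDegree (χ₀ : G → ℂ), fun χ hχ => ?_⟩
  have h1 : IsPRegular p (1 : G) := by
    show ¬ p ∣ orderOf (1 : G)
    rw [orderOf_one]; exact (Fact.out : p.Prime).not_dvd_one
  have h := hΦ (Φ.symm ⟨χ, hχ⟩) 1 h1
  rw [Equiv.apply_symm_apply] at h
  haveI : IsMulCommutative P := ⟨⟨fun a b => Subtype.ext (hab _ a.2 _ b.2)⟩⟩
  rw [Chars.coe_charDegree (Φ.symm ⟨χ, hχ⟩),
    Chars.map_one_eq_one_of_isMulCommutative (Φ.symm ⟨χ, hχ⟩), one_mul] at h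
  unfold charDegree
  exact congrArg (fun z : ℂ => ⌊z.re⌋₊) h

end CfsgLib.Blocks.EqualDegree
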