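import Cfsg.Agent.Blocks.Defect.Nilpotent
import Cfsg.Agent.Blocks.Defect.Covered

/-!
# Blocks with a normal defect group and trivial inertia

If the `p`-regular elements of the stabilizer of the pair at a normal defect group centralize it
then the block is nilpotent.
-/

set_option autoImplicit false
set_option linter.unusedSectionVars false
set_option linter.style.haveILetI false
open scoped MonoidAlgebra
open MonoidAlgebra (single)
open Cfsg

namespace CfsgLib.Blocks.EqualDegree

variable {k : Type*} [Field k] {G : Type*} [Group G] [Finite G] {p : ℕ} [Fact p.Prime] [CharP k p]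
  {e g : k[G]} {D : Subgroup G}

/-- A block is supported on the centralizer of a normal `p`-subgroup. -/
theorem isSupportedOn_centralizer_of_normal (hDn : D.Normal) (hDp : IsPGroup p D)
    (he : IsBlockIdem ⊤ e) : IsSupportedOn e (Subgroup.centralizer (D : Set G)) := by
  have hN : Subgroup.normalizer (D : Set G) = ⊤ := Subgroup.normalizer_eq_top_iff.mpr hDn
  have hb := brTrunc_mem_centerIn (Q := D) he.1
  rw [top_inf_eq] at hb
  have hc : brTrunc D e ∈ centerIn k (⊤ : Subgroup G) :=
    ⟨isSupportedOn_top _, he.1.2.brTrunc hN.ge⟩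
  have hidem : brTrunc D e * brTrunc D e = brTrunc D e := by
    rw [← brTrunc_mul hDp (he.1.2.mono le_top) (he.1.2.mono le_top), he.idem]
  have hnil : IsNilpotent (e - brTrunc D e) := by
    refine isNilpotent_of_brTrunc_eq_zero hDp le_top hN.ge (sub_mem he.1 hc) ?_
    rw [map_sub, brTrunc_brTrunc le_rfl, sub_self]
  have h : e = brTrunc D e := idempotent_eq_of_isNilpotent_sub he.idem hidem
    (commute_centerIn he.1 hc) hnil
  rw [h]
  exact hb.1

/-- The stabilizer of the pair at the defect group, when its regular part centralizes. -/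
theorem pairStab_le_sup_of_regular [IsAlgClosed k] (he : IsBlockIdem ⊤ e)
    (hmax : IsMaxPairIdem p ⊤ e D g)
    (hreg : ∀ x ∈ pairStab ⊤ D g, IsPRegular p x → x ∈ Subgroup.centralizer (D : Set G)) :
    pairStab ⊤ D g ≤ Subgroup.centralizer (D : Set G) ⊔ D := by
  have hpg := hmax.1.1
  have hC := hpg.inf_centralizer_le_pairStab
  have hbC := hpg.2.2
  rw [top_inf_eq] at hC hbC
  have hTN := pairStab_le_normalizer (⊤ : Subgroup G) D g
  set T := pairStab ⊤ D g with hT
  have hTC : T ≤ Subgroup.normalizer ((Subgroup.centralizer (D : Set G) : Subgroup G) : Set G) :=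
    hTN.trans (normalizer_le_normalizer_centralizer D)
  have hDD : D ⊓ Subgroup.normalizer (D : Set G) = D := inf_eq_left.mpr Subgroup.le_normalizer
  have hidx := not_dvd_relIndex_sup_defectGroup hC hTC hbC hpg.isBlockIdem_pairStab
    (isDefectGroupIdem_pairStab_self he hmax)
  rw [hDD] at hidx
  set C' := (Subgroup.centralizer (D : Set G)).subgroupOf T with hC'
  haveI : C'.Normal := (Subgroup.normal_subgroupOf_iff_le_normalizer hC).mpr hTC
  have hpow : IsPGroup p (T ⧸ C') := by
    intro q
    obtain ⟨t, rfl⟩ := QuotientGroup.mk'_surjective C' q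
    obtain ⟨a, m, hm, hord⟩ :=
      Nat.exists_eq_pow_mul_and_not_dvd (orderOf_pos t).ne' p (Fact.out : p.Prime).ne_one
    refine ⟨a, ?_⟩
    rw [← map_pow]
    refine (QuotientGroup.eq_one_iff _).mpr ?_
    show ((t ^ p ^ a : T) : G) ∈ Subgroup.centralizer (D : Set G)
    refine hreg _ (t ^ p ^ a : T).2 ?_
    intro hdvd
    rw [Subgroup.orderOf_coe, orderOf_pow, hord, Nat.gcd_mul_right_left,
      Nat.mul_div_cancel_left _ (pow_pos (Fact.out : p.Prime).pos a)] at hdvd
    exact hm hdvd
  obtain ⟨n, hn⟩ := IsPGroup.iff_card.mp hpow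
  have hdvd : (Subgroup.centralizer (D : Set G) ⊔ D).relIndex T ∣ p ^ n := by
    rw [← hn, ← Subgroup.index_eq_card]
    exact Subgroup.index_dvd_of_le (fun t ht => Subgroup.mem_sup_left ht)
  obtain ⟨i, -, hi⟩ := (Nat.dvd_prime_pow (Fact.out : p.Prime)).mp hdvd
  rw [← Subgroup.relIndex_eq_one]
  rcases Nat.eq_zero_or_pos i with rfl | hi0
  · simpa using hi
  · exact absurd (hi ▸ dvd_pow_self p hi0.ne') hidx

/-- **Trivial inertia at a normal defect group gives a nilpotent block.** -/
theorem isNilpotentIdem_of_normal [IsAlgClosed k] (hDn : D.Normal) (he : IsBlockIdem ⊤ e)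
    (hmax : IsMaxPairIdem p ⊤ e D g)
    (hreg : ∀ x ∈ pairStab ⊤ D g, IsPRegular p x → x ∈ Subgroup.centralizer (D : Set G)) :
    IsNilpotentIdem p ⊤ e := by
  classical
  have hT := pairStab_le_sup_of_regular he hmax hreg
  have hDp : IsPGroup p D := hmax.1.1.1
  have hgb : IsBlockIdem (Subgroup.centralizer (D : Set G)) g := by
    have := hmax.1.1.2.2
    rwa [top_inf_eq] at this
  have hsupp := isSupportedOn_centralizer_of_normal hDn hDp he
  haveI hCn : (Subgroup.centralizer (D : Set G)).Normal := Subgroup.normal_centralizer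
  have hnorm : (⊤ : Subgroup G) ≤
      Subgroup.normalizer ((Subgroup.centralizer (D : Set G) : Subgroup G) : Set G) :=
    (Subgroup.normalizer_eq_top_iff.mpr hCn).ge
  have heg : e * g = g := by
    have h : brTrunc D e * g = g := hmax.1.2
    rwa [brTrunc_eq_self hsupp] at h
  have horb : orbitSum ⊤ g * e = e :=
    mul_orbitSum_eq_self le_top hnorm hgb he (by rw [heg]; exact hgb.ne_zero)
  intro Q f hf x _ hxN hxf hxreg
  obtain ⟨y, -, hle⟩ := hf.exists_conj_le he hmax
  have hQD : Q ≤ D := by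
    intro q hq
    have h1 : y * q * y⁻¹ ∈ D := hle.le ⟨q, hq, rfl⟩
    have h2 := hDn.conj_mem _ h1 y⁻¹
    simpa [mul_assoc] using h2
  have hCle : Subgroup.centralizer (D : Set G) ≤ Subgroup.centralizer (Q : Set G) :=
    Subgroup.centralizer_le hQD
  have hfb : IsBlockIdem (Subgroup.centralizer (Q : Set G)) f := by
    have := hf.1.2.2
    rwa [top_inf_eq] at this
  have hef : e * f = f := by
    have h : brTrunc Q e * f = f := hf.2
    rwa [brTrunc_eq_self (isSupportedOn_mono hsupp hCle)] at h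
  obtain ⟨a, ha, hane⟩ : ∃ a ∈ conjOrbit (⊤ : Subgroup G) g, f * a ≠ 0 := by
    by_contra hcon
    simp only [not_exists, not_and, not_not] at hcon
    refine hfb.ne_zero ?_
    rw [← hef, ← horb, mul_assoc, hef,
      (commute_of_isFixedBy hfb.1.1 ((isFixedBy_orbitSum ⊤ g).mono le_top)).eq.symm, orbitSum,
      Finset.mul_sum]
    exact Finset.sum_eq_zero hcon
  have hab := isBlockIdem_of_mem_conjOrbit hnorm hgb ha
  have hLn : Subgroup.centralizer (Q : Set G) ≤
      Subgroup.normalizer ((Subgroup.centralizer (D : Set G) : Subgroup G) : Set G) :=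
    le_top.trans hnorm
  have hfa := mul_orbitSum_eq_self hCle hLn hab hfb hane
  have hxne : f * Blocks.conjA x a ≠ 0 := by
    rw [← hxf, ← map_mul]
    exact fun h => hane ((Blocks.conjA x).map_eq_zero_iff.mp h)
  have hxab := hab.conjA x
  rw [map_conj_eq_self_of_mem_normalizer (hnorm (Subgroup.mem_top x))] at hxab
  have hmem : Blocks.conjA x a ∈ conjOrbit (Subgroup.centralizer (Q : Set G)) a := by
    by_contra hno
    apply hxne
    rw [← hfa, (commute_of_isFixedBy (isSupportedOn_mono
      (isSupportedOn_orbitSum hLn hab) hCle) hfb.1.2).eq, mul_assoc, orbitSum, Finset.sum_mul,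
      Finset.sum_eq_zero fun b hb => ?_, mul_zero]
    exact (isBlockIdem_of_mem_conjOrbit hLn hab hb).orthogonal hxab fun hbe => hno (hbe ▸ hb)
  obtain ⟨c, hc, hca⟩ := mem_conjOrbit.mp hmem
  obtain ⟨n, -, rfl⟩ := mem_conjOrbit.mp ha
  have hst : n⁻¹ * (c⁻¹ * x) * n ∈ pairStab ⊤ D g := by
    refine mem_pairStab.mpr ⟨⟨Subgroup.mem_top _, ?_⟩, ?_⟩
    · rw [Subgroup.normalizer_eq_top_iff.mpr hDn]; exact Subgroup.mem_top _
    · have h2 := congrArg (Blocks.conjA (n⁻¹ * c⁻¹)) hca
      simp only [conjA_conjA] at h2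
      rw [show n⁻¹ * c⁻¹ * (c * n) = 1 by group, conjA_one_left] at h2
      rw [show n⁻¹ * (c⁻¹ * x) * n = n⁻¹ * c⁻¹ * (x * n) by group]
      exact h2.symm
  haveI := hDn
  have h3 := (inferInstance : (Subgroup.centralizer (D : Set G) ⊔ D).Normal).conj_mem _ (hT hst) n
  rw [show n * (n⁻¹ * (c⁻¹ * x) * n) * n⁻¹ = c⁻¹ * x by group] at h3
  obtain ⟨c', hc', d, hd, hcd⟩ := Subgroup.mem_sup_of_normal_left.mp h3
  have hx : x = (c * c') * d := by rw [mul_assoc, hcd]; group
  have hcc : c * c' ∈ Subgroup.centralizer (Q : Set G) := Subgroup.mul_mem _ hc (hCle hc')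
  have hdN : d ∈ Subgroup.normalizer (Q : Set G) := by
    have : d = (c * c')⁻¹ * x := by rw [hx]; group
    rw [this]
    exact Subgroup.mul_mem _ (Subgroup.inv_mem _ (Subgroup.centralizer_le_normalizer _ hcc)) hxN
  obtain ⟨m, hm⟩ := hDp ⟨d, hd⟩
  refine mem_centralizer_of_regular (u := d) ⟨m, by simpa using congrArg Subtype.val hm⟩ hxreg hxN
    hdN fun q hq => ?_
  have hq' : d * q * d⁻¹ ∈ Q := (Subgroup.mem_normalizer_iff.mp hdN q).mp hq
  have h4 := Subgroup.mem_centralizer_iff.mp hcc _ hq'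
  calc x * q * x⁻¹ = (c * c') * (d * q * d⁻¹) * (c * c')⁻¹ := by rw [hx]; group
    _ = d * q * d⁻¹ := by rw [← h4]; group

end CfsgLib.Blocks.EqualDegree
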