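import Cfsg.Agent.Blocks.Defect.OrbitBlock
import Cfsg.Agent.Blocks.Defect.Embed
import Cfsg.Agent.Blocks.OneSimple.Projective

/-!
# Idempotents and a normal `p`-subgroup

Reduction modulo a normal `p`-subgroup `N` does not kill an idempotent supported on the centralizer
of `N`.  If `L ⊇ N` is a subgroup whose `p`-regular elements lie in a subgroup `C` centralizing `N`
then the central idempotents of the image of `L` lift to central idempotents supported on `C`.
-/

set_option autoImplicit false
set_option linter.unusedSectionVars false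
set_option linter.style.haveILetI false
open scoped MonoidAlgebra
open MonoidAlgebra (single)
open Cfsg

namespace CfsgLib.Blocks.EqualDegree

universe u

section hom

variable {k : Type*} [Field k] {G : Type*} [Group G] [Fintype G] (N : Subgroup G) [N.Normal]

open scoped Classical in
/-- The coefficient of an image is the sum over the coset. -/
theorem coeff_emb_mk (a : k[G]) (q : G ⧸ N) :
    (emb k (QuotientGroup.mk' N) a).coeff q = ∑ x : G, if (x : G ⧸ N) = q then a.coeff x else 0 := by
  induction a using MonoidAlgebra.induction_linear with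
  | zero => simp
  | add a b ha hb =>
    rw [map_add, MonoidAlgebra.coeff_add, Finsupp.add_apply, ha, hb, ← Finset.sum_add_distrib]
    refine Finset.sum_congr rfl fun x _ => ?_
    split_ifs <;> simp
  | single g t =>
    rw [show emb k (QuotientGroup.mk' N) (single g t) = single (g : G ⧸ N) t by simp [emb],
      MonoidAlgebra.coeff_single, Finsupp.single_apply]
    rw [Finset.sum_eq_single g (fun x _ hx => by simp [Finsupp.single_eq_of_ne hx]) (by simp)]
    simp

theorem emb_conjA_mk (x : G) (a : k[G]) :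
    emb k (QuotientGroup.mk' N) (Blocks.conjA x a) =
      Blocks.conjA (x : G ⧸ N) (emb k (QuotientGroup.mk' N) a) := by
  induction a using MonoidAlgebra.induction_linear with
  | zero => simp
  | add a b ha hb => simp only [map_add, ha, hb]
  | single g t => simp [emb, Blocks.conjA, MulAut.conj]

variable {N} {p : ℕ} [Fact p.Prime] [CharP k p]

/-- An element centralizing `N` and killed by the reduction is nilpotent. -/
theorem isNilpotent_of_emb_eq_zero (hN : IsPGroup p N) {z : k[G]}
    (hfix : IsFixedBy z N) (h0 : emb k (QuotientGroup.mk' N) z = 0) : IsNilpotent z := by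
  classical
  haveI : FiniteDimensional k k[G] := Module.Finite.of_basis (MonoidAlgebra.basis G k)
  set L := LinearMap.mulLeft k z with hL
  obtain ⟨n, hn, hn1⟩ := ((LinearMap.eventually_isCompl_ker_pow_range_pow L).and
    (Filter.eventually_ge_atTop 1)).exists
  have hLp : ∀ v : k[G], (L ^ n) v = z ^ n * v := fun v => by
    rw [hL, LinearMap.pow_mulLeft, LinearMap.mulLeft_apply]
  refine ⟨n, ?_⟩
  by_contra hne
  set V := LinearMap.range (L ^ n)
  have hcomm : ∀ u : N, Commute (single (u : G) (1 : k)) (z ^ n) := fun u =>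
    (isFixedBy_iff_commute.mp hfix u u.2).pow_right n
  have hst : ∀ u : N, ∀ v ∈ V, LinearMap.mulLeft k (single (u : G) (1 : k)) v ∈ V := by
    rintro u _ ⟨a, rfl⟩
    refine ⟨single (u : G) 1 * a, ?_⟩
    rw [LinearMap.mulLeft_apply, hLp, hLp, ← mul_assoc, ← mul_assoc, (hcomm u).eq]
  let ρ : N →* Module.End k V :=
    { toFun := fun u => (LinearMap.mulLeft k (single (u : G) (1 : k))).restrict (hst u)
      map_one' := by
        refine LinearMap.ext fun v => Subtype.ext ?_
        show single ((1 : N) : G) (1 : k) * (v : k[G]) = v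
        rw [OneMemClass.coe_one, ← MonoidAlgebra.one_def, one_mul]
      map_mul' := fun a b => by
        refine LinearMap.ext fun v => Subtype.ext ?_
        show single ((a * b : N) : G) (1 : k) * (v : k[G]) =
          single (a : G) (1 : k) * (single (b : G) (1 : k) * (v : k[G]))
        rw [← mul_assoc, MonoidAlgebra.single_mul_single, one_mul, Subgroup.coe_mul] }
  obtain ⟨⟨w, hw⟩, hw0, hwfix⟩ := OneSimple.exists_fixed_vector hN ρ
    (v := ⟨z ^ n, ⟨1, by rw [hLp, mul_one]⟩⟩) (fun h => hne (congrArg Subtype.val h))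
  refine hw0 (Subtype.ext ?_)
  show w = 0
  have hconst : ∀ u ∈ N, ∀ x : G, w.coeff (u * x) = w.coeff x := by
    intro u hu x
    have h : single u (1 : k) * w = w := congrArg Subtype.val (hwfix ⟨u, hu⟩)
    conv_lhs => rw [← h]
    rw [MonoidAlgebra.coeff_single_mul_apply, one_mul, inv_mul_cancel_left]
  have hzw : z * w = 0 := by
    refine MonoidAlgebra.ext (Finsupp.ext fun y => ?_)
    rw [MonoidAlgebra.coeff_mul_apply_left, Finsupp.sum_fintype _ _ (fun _ => zero_mul _),
      ← Finset.sum_fiberwise Finset.univ (fun x : G => (x : G ⧸ N))]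
    show _ = (0 : k)
    refine Finset.sum_eq_zero fun q _ => ?_
    obtain ⟨x₀, rfl⟩ := QuotientGroup.mk_surjective q
    rw [Finset.sum_congr rfl (g := fun x => z.coeff x * w.coeff (x₀⁻¹ * y)) fun x hx => ?_,
      ← Finset.sum_mul, Finset.sum_filter, ← coeff_emb_mk, h0]
    · simp
    · congr 1
      have hmem : x⁻¹ * x₀ ∈ N := QuotientGroup.eq.mp (Finset.mem_filter.mp hx).2
      rw [show x⁻¹ * y = (x⁻¹ * x₀) * (x₀⁻¹ * y) by group, hconst _ hmem]
  have hker : w ∈ LinearMap.ker (L ^ n) := by
    obtain ⟨m, rfl⟩ := Nat.exists_eq_add_of_le hn1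
    rw [LinearMap.mem_ker, hLp, add_comm, pow_succ, mul_assoc, hzw, mul_zero]
  exact Submodule.disjoint_def.mp hn.disjoint w hker hw

/-- **An idempotent centralizing `N` survives.** -/
theorem eq_zero_of_emb_eq_zero (hN : IsPGroup p N) {z : k[G]} (hz : z * z = z)
    (hfix : IsFixedBy z N) (h0 : emb k (QuotientGroup.mk' N) z = 0) : z = 0 :=
  idempotent_eq_zero_of_isNilpotent hz (isNilpotent_of_emb_eq_zero hN hfix h0)

end hom

section regular

variable {G : Type*} [Group G] [Finite G] {N : Subgroup G} [N.Normal] {p : ℕ} [hp : Fact p.Prime]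

/-- A regular element of the quotient comes from a regular element. -/
theorem exists_regular_preimage {y : G} (hy : IsPRegular p (y : G ⧸ N)) :
    ∃ t ∈ Subgroup.zpowers y, (t : G ⧸ N) = (y : G ⧸ N) ∧ IsPRegular p t := by
  obtain ⟨a, m, hm, hord⟩ :=
    Nat.exists_eq_pow_mul_and_not_dvd (orderOf_pos y).ne' p hp.out.ne_one
  have hcop : Nat.Coprime (p ^ a) (orderOf (y : G ⧸ N)) :=
    ((hp.out.coprime_iff_not_dvd).mpr hy).pow_left a
  obtain ⟨e, he1, he2⟩ := Nat.chineseRemainder hcop 0 1
  refine ⟨y ^ e, Subgroup.npow_mem_zpowers y e, ?_, ?_⟩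
  · rw [QuotientGroup.mk_pow]
    exact (pow_eq_pow_iff_modEq.2 he2).trans (pow_one _)
  · intro hd
    refine hm (hd.trans (orderOf_dvd_of_pow_eq_one ?_))
    rw [← pow_mul]
    refine orderOf_dvd_iff_pow_eq_one.mp ?_
    rw [hord]
    exact mul_dvd_mul_right (Nat.modEq_zero_iff_dvd.mp he1) m

/-- Two regular elements of a coset, one centralizing `N`, agree. -/
theorem regular_unique (hN : IsPGroup p N) {x x' : G} (hx : IsPRegular p x)
    (hx' : IsPRegular p x') (hc : x ∈ Subgroup.centralizer (N : Set G))
    (h : (x : G ⧸ N) = (x' : G ⧸ N)) : x = x' := by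
  set n := x⁻¹ * x' with hn
  have hnN : n ∈ N := QuotientGroup.eq.mp h
  have hxn : Commute x n := (Subgroup.mem_centralizer_iff.mp hc n hnN).symm
  have hx'n : x' = x * n := by rw [hn, mul_inv_cancel_left]
  have hxx' : Commute x x' := hx'n ▸ (Commute.refl x).mul_right hxn
  have hdvd : orderOf n ∣ orderOf x * orderOf x' := by
    refine orderOf_dvd_of_pow_eq_one ?_
    rw [hn, hxx'.inv_left.mul_pow, pow_mul, inv_pow x, pow_orderOf_eq_one, inv_one, one_pow,
      mul_comm (orderOf x), pow_mul, pow_orderOf_eq_one, one_pow, mul_one]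
  obtain ⟨i, hi⟩ := hN ⟨n, hnN⟩
  have h1 : orderOf n ∣ p ^ i := orderOf_dvd_of_pow_eq_one (by simpa using congrArg Subtype.val hi)
  have hcop : Nat.Coprime (p ^ i) (orderOf x * orderOf x') :=
    ((hp.out.coprime_iff_not_dvd.mpr hx).mul_right (hp.out.coprime_iff_not_dvd.mpr hx')).pow_left i
  have h2 : orderOf n = 1 := Nat.eq_one_of_dvd_coprimes hcop h1 hdvd
  rw [hx'n, orderOf_eq_one_iff.mp h2, mul_one]

end regular

section lift

variable {M : Ideal AlgInt} [hM : M.IsMaximal] {G : Type u} [Group G] [Fintype G] {p : ℕ}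
  [hp : Fact p.Prime] [CharP (kres M) p] {N : Subgroup G} [N.Normal]

/-- **Lifting central idempotents from the quotient.** -/
theorem exists_lift (hMp : IsPModular p M) (hN : IsPGroup p N) {C : Subgroup G}
    (hCN : C ≤ Subgroup.centralizer (N : Set G)) {L : Subgroup (G ⧸ N)}
    (hL : ∀ t : G, (t : G ⧸ N) ∈ L → IsPRegular p t → t ∈ C) {i : (kres M)[G ⧸ N]}
    (hi : i ∈ centerIn (kres M) L) (hii : i * i = i) :
    ∃ j : (kres M)[G], IsSupportedOn j C ∧
      IsFixedBy j (L.comap (QuotientGroup.mk' N)) ∧ j * j = j ∧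
      emb (kres M) (QuotientGroup.mk' N) j = i := by
  classical
  haveI := Fintype.ofFinite (G ⧸ N)
  let j₀ : (kres M)[G] := MonoidAlgebra.ofCoeff (Finsupp.equivFunOnFinite.symm
    fun t => if IsPRegular p t then i.coeff (t : G ⧸ N) else 0)
  have hj₀ : ∀ t, j₀.coeff t = if IsPRegular p t then i.coeff (t : G ⧸ N) else 0 := fun t => rfl
  have hsupp : IsSupportedOn j₀ C := by
    intro t ht
    rw [hj₀]
    split_ifs with hr
    · exact hi.1 _ fun hL' => ht (hL t hL' hr)
    · rfl
  have hfix : IsFixedBy j₀ (L.comap (QuotientGroup.mk' N)) := by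
    intro s hs t
    rw [hj₀, hj₀, show IsPRegular p (s * t * s⁻¹) = IsPRegular p t by
      rw [IsPRegular, IsPRegular, show s * t * s⁻¹ = MulAut.conj s t from rfl, MulEquiv.orderOf_eq]]
    split_ifs
    · rw [QuotientGroup.mk_mul, QuotientGroup.mk_mul, QuotientGroup.mk_inv]
      exact hi.2 _ hs _
    · rfl
  have himg : emb (kres M) (QuotientGroup.mk' N) j₀ = i := by
    refine MonoidAlgebra.ext (Finsupp.ext fun q => ?_)
    rw [coeff_emb_mk]
    by_cases hq : IsPRegular p q ∧ q ∈ L
    · obtain ⟨y, rfl⟩ := QuotientGroup.mk_surjective q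
      obtain ⟨t, -, htq, htr⟩ := exists_regular_preimage hq.1
      rw [Finset.sum_eq_single t (fun x _ hx => ?_) (by simp), if_pos htq, hj₀, if_pos htr, htq]
      rw [hj₀]
      by_cases hxr : IsPRegular p x
      · rw [if_neg]
        intro hxq
        refine hx (regular_unique hN hxr htr ?_ (hxq.trans htq.symm))
        exact hCN (hL x (hxq ▸ hq.2) hxr)
      · simp [hxr]
    · have hz : i.coeff q = 0 := by
        by_cases hqL : q ∈ L
        · exact coeff_eq_zero_of_singular hMp hi hii (by
            by_contra h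
            exact hq ⟨h, hqL⟩)
        · exact hi.1 q hqL
      rw [hz]
      refine Finset.sum_eq_zero fun x _ => ?_
      by_cases hx : (x : G ⧸ N) = q
      · rw [if_pos hx, hj₀, hx, hz, ite_self]
      · rw [if_neg hx]
  have hfixN : IsFixedBy (j₀ * j₀ - j₀) N := isFixedBy_iff_commute.mpr fun u hu => by
    have h : Commute (single u (1 : kres M)) j₀ := by
      refine commute_of_isFixedBy (IsSupportedOn.single hu 1) ?_
      exact isFixedBy_of_supported_centralizer (isSupportedOn_mono hsupp hCN)
    exact (h.mul_right h).sub_right h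
  obtain ⟨n, hn⟩ := isNilpotent_of_emb_eq_zero hN hfixN (by
    rw [map_sub, map_mul, himg, hii, sub_self])
  haveI : CharP (kres M)[G] p :=
    charP_of_injective_algebraMap (algebraMap (kres M) (kres M)[G]).injective p
  set P := p ^ n with hP
  refine ⟨j₀ ^ P, ?_, ?_, ?_, ?_⟩
  · have : ∀ m : ℕ, IsSupportedOn (j₀ ^ m) C := fun m => by
      induction m with
      | zero => rw [pow_zero]; exact IsSupportedOn.one
      | succ m ih => rw [pow_succ]; exact ih.mul hsupp
    exact this P
  · exact isFixedBy_iff_commute.mpr fun u hu =>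
      (isFixedBy_iff_commute.mp hfix u hu).pow_right P
  · rw [← sub_eq_zero, ← (Commute.refl j₀).mul_pow, hP, ← sub_pow_char_pow_of_commute (p := p) (n := n)
      ((Commute.refl j₀).mul_left (Commute.refl j₀))]
    exact pow_eq_zero_of_le (n.lt_pow_self hp.out.one_lt).le hn
  · obtain ⟨m, hm⟩ := Nat.exists_eq_add_of_le (Nat.one_le_pow n p hp.out.pos)
    rw [map_pow, himg, hP, hm, add_comm]
    exact IsIdempotentElem.pow_succ_eq m hii

end lift

end CfsgLib.Blocks.EqualDegree
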