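import Cfsg.Agent.Blocks.EqualDegree.Inertia
import Cfsg.Agent.Blocks.EqualDegree.QuotientIdem
import Cfsg.Agent.Blocks.EqualDegree.NormalNilpotent
import Cfsg.Agent.Blocks.Defect.Quotient
import Cfsg.Agent.Chars.Induced.Ito
import Cfsg.Agent.PGroup.Aut
import Cfsg.Agent.PGroup.Frattini
import Cfsg.Agent.Blocks.Star.Nilpotent

/-!
# Equal degrees at height zero, for a normal defect group

Modulo the Frattini subgroup of the defect group the pair stays a maximal pair and all characters
inflate to members of height zero, so equal degrees make the stabilizer centralize the quotient.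
-/

set_option autoImplicit false
set_option linter.unusedSectionVars false
set_option linter.style.haveILetI false
open scoped MonoidAlgebra
open MonoidAlgebra (single)

namespace CfsgLib.Blocks.EqualDegree

open Cfsg CfsgLib.Blocks

universe u

variable {M : Ideal AlgInt} [hM : M.IsMaximal] {p : ℕ} [hp : Fact p.Prime] [CharP (kres M) p]
  {G : Type u} [Group G] [Fintype G] {B : Set (IrrCharacter G)} {D : Subgroup G}

/-- A block of the quotient under the image of the idempotent inflates into the block. -/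
theorem subset_below_of_mul {N : Subgroup G} [N.Normal] (hB : IsPBlock M B)
    {Bb : Set (IrrCharacter (G ⧸ N))} [Fintype (G ⧸ N)] (hBb : IsPBlock M Bb)
    (h : topEl M Bb * emb (kres M) (QuotientGroup.mk' N) (topEl M B) = topEl M Bb) :
    Bb ⊆ Quot.below N B := by
  classical
  haveI := Fintype.ofFinite N
  intro φ hφ
  by_contra hno
  let z : centerO M (G ⧸ N) :=
    ⟨setIdem (Quot.below N B), isCentralElt_setIdem _, Quot.memLocalRing_below hB⟩
  have hz : (centerRed M (G ⧸ N) z : (kres M)[G ⧸ N]) =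
      emb (kres M) (QuotientGroup.mk' N) (topEl M B) := by
    refine MonoidAlgebra.ext (Finsupp.ext fun q => ?_)
    rw [coe_centerRed, coeff_reduceHom, coeff_emb_mk]
    obtain ⟨g, rfl⟩ := QuotientGroup.mk_surjective q
    refine (redC_of_mem (Quot.memLocalRing_below hB (g : G ⧸ N))).symm.trans ?_
    rw [Quot.blockCoeff_below, redC_sum _ _ fun n _ => memLocalRing_blockCoeff hB _,
      ← Finset.sum_filter]
    refine Finset.sum_bij (fun (n : N) _ => g * (n : G)) (fun n _ => ?_)
      (fun a _ b _ hab => Subtype.ext (mul_left_cancel hab)) (fun x hx => ?_) fun n _ => ?_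
    · exact Finset.mem_filter.mpr ⟨Finset.mem_univ _, QuotientGroup.mk_mul_of_mem g n.2⟩
    · exact ⟨⟨g⁻¹ * x, QuotientGroup.eq.mp (Finset.mem_filter.mp hx).2.symm⟩, Finset.mem_univ _,
        mul_inv_cancel_left g x⟩
    · rw [coeff_topEl]
  have hprod : centerRed M (G ⧸ N) z * blockIdemK hBb = blockIdemK hBb := by
    refine Subtype.ext ?_
    have hb : (blockIdemK hBb : (kres M)[G ⧸ N]) = topEl M Bb := by
      refine MonoidAlgebra.ext (Finsupp.ext fun q => ?_)
      rw [coeff_blockIdemK, coeff_topEl, redC_of_mem]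
    rw [MulMemClass.coe_mul, hz, hb,
      (commute_of_isFixedBy (isSupportedOn_top _) (isBlockIdem_topEl hBb).1.2).eq, h]
  have h1 := congrArg (omegaBar M φ) hprod
  rw [map_mul, omegaBar_blockIdemK, if_pos hφ, mul_one, omegaBar_centerRed] at h1
  refine one_ne_zero (α := kres M) ?_
  rw [← h1, res_eq_zero_iff]
  show MemLocalIdeal M (omega (φ : G ⧸ N → ℂ) (setIdem (Quot.below N B)))
  rw [omega_setIdem, if_neg hno]
  exact memLocalIdeal_zero

/-- **Equal degrees at height zero: the regular part of the stabilizer centralizes.** -/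
theorem mem_centralizer_of_degrees (hMp : IsPModular p M) (hB : IsPBlock M B) (hDn : D.Normal)
    (hD : IsDefectGroup p M B D) {d : ℕ}
    (hdeg : ∀ χ ∈ B, blockHeight p B ((χ : IrrCharacter G) : G → ℂ) = 0 →
      charDegree (χ : G → ℂ) = d) {g : (kres M)[G]}
    (hmax : IsMaxPairIdem p ⊤ (topEl M B) D g) {x : G} (hx : x ∈ pairStab ⊤ D g)
    (hxr : IsPRegular p x) : x ∈ Subgroup.centralizer (D : Set G) := by
  classical
  have hDp : IsPGroup p D := hmax.1.1.1
  haveI := hDn
  set N := (frattini D).map D.subtype with hNdef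
  haveI : N.Normal := inferInstance
  have hND : N ≤ D := Subgroup.map_subtype_le _
  have hNp : IsPGroup p N := hDp.to_le hND
  set C := Subgroup.centralizer (D : Set G) with hC
  haveI hCn : C.Normal := Subgroup.normal_centralizer
  have hCN : C ≤ Subgroup.centralizer (N : Set G) := Subgroup.centralizer_le hND
  haveI := Fintype.ofFinite (G ⧸ N)
  set π := QuotientGroup.mk' N with hπ
  set Db := D.map π with hDb
  haveI hDbn : Db.Normal := hDn.map π (QuotientGroup.mk'_surjective N)
  have hDbab : ∀ a ∈ Db, ∀ b ∈ Db, a * b = b * a := by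
    rintro _ ⟨a, ha, rfl⟩ _ ⟨b, hb, rfl⟩
    rw [← map_mul, ← map_mul]
    refine QuotientGroup.eq.mpr ?_
    have hm := CfsgLib.PGroup.commutatorElement_mem_frattini hDp (⟨b, hb⟩ : D)⁻¹ (⟨a, ha⟩ : D)⁻¹
    refine ⟨_, hm, ?_⟩
    simp [commutatorElement_def, mul_assoc]
  have hDbp : IsPGroup p Db := hDp.map π
  set Cb := Subgroup.centralizer (Db : Set (G ⧸ N)) with hCb
  -- Burnside
  have hburn : ∀ t : G, π t ∈ Cb → IsPRegular p t → t ∈ C := by
    intro t ht htr
    have htN : t ∈ Subgroup.normalizer (D : Set G) := by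
      rw [Subgroup.normalizer_eq_top_iff.mpr hDn]; exact Subgroup.mem_top t
    set σ := Subgroup.normalizerMonoidHom D ⟨t, htN⟩ with hσ
    have hcop : (orderOf σ).Coprime p := by
      refine Nat.Coprime.coprime_dvd_left ?_ ((hp.out.coprime_iff_not_dvd.mpr htr).symm)
      have := orderOf_map_dvd (Subgroup.normalizerMonoidHom D) ⟨t, htN⟩
      rwa [← Subgroup.orderOf_coe] at this
    have h1 : σ = 1 := by
      refine CfsgLib.PGroup.aut_eq_one_of_trivial_frattini hDp hcop fun u => ?_
      have hmem : t * u * t⁻¹ * (u : G)⁻¹ ∈ N := by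
        rw [← QuotientGroup.eq_one_iff (N := N)]
        simp only [QuotientGroup.mk_mul, QuotientGroup.mk_inv]
        have h : π (u : G) * π t = π t * π (u : G) :=
          Subgroup.mem_centralizer_iff.mp ht _ ⟨u, u.2, rfl⟩
        rw [show (QuotientGroup.mk t : G ⧸ N) * (QuotientGroup.mk (u : G)) = π t * π u from rfl,
          ← h]
        simp [hπ]
      obtain ⟨w, hw, hwe⟩ := hmem
      have : w = σ u * u⁻¹ := Subtype.ext (hwe.trans rfl)
      rwa [← this]
    rw [hC, Subgroup.mem_centralizer_iff]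
    intro u hu
    have h2 : t * u * t⁻¹ = u := congrArg (fun a : MulAut D => ((a ⟨u, hu⟩ : D) : G)) h1
    calc u * t = t * u * t⁻¹ * t := by rw [h2]
      _ = t * u := by group
  refine hburn x ?_ hxr
  -- the pair at the quotient
  set C1 := Cb.comap π with hC1
  haveI : C1.Normal := (Subgroup.normal_centralizer (H := Db)).comap π
  have hCC1 : C ≤ C1 := by
    intro c hc
    show π c ∈ Cb
    rw [hCb, Subgroup.mem_centralizer_iff]
    rintro _ ⟨u, hu, rfl⟩
    rw [← map_mul, ← map_mul, Subgroup.mem_centralizer_iff.mp hc u hu]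
  have he := isBlockIdem_topEl hB (M := M)
  have hgb : IsBlockIdem C g := by
    have := hmax.1.1.2.2
    rwa [top_inf_eq] at this
  have hnorm : C1 ≤ Subgroup.normalizer (C : Set G) :=
    le_top.trans (Subgroup.normalizer_eq_top_iff.mpr hCn).ge
  set u := orbitSum C1 g with hu
  have huC : IsSupportedOn u C := isSupportedOn_orbitSum hnorm hgb
  have huu : u * u = u := orbitSum_idem hnorm hgb
  have hug : u * g = g := orbitSum_mul_of_mem hnorm hgb (self_mem_conjOrbit C1 g)
  have hufix : IsFixedBy u C1 := isFixedBy_orbitSum C1 g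
  have hsupp := isSupportedOn_centralizer_of_normal hDn hDp he
  have heg : topEl M B * g = g := by
    have h : brTrunc D (topEl M B) * g = g := hmax.1.2
    rwa [brTrunc_eq_self hsupp] at h
  have heu : topEl M B * u = u := by
    rw [hu, orbitSum, Finset.mul_sum]
    refine Finset.sum_congr rfl fun a ha => ?_
    obtain ⟨n, -, rfl⟩ := mem_conjOrbit.mp ha
    rw [← isFixedBy_iff_conjA.mp he.1.2 n (Subgroup.mem_top n), ← map_mul, heg]
  set E := emb (kres M) π with hE
  set s := E u with hs
  have hs0 : s ≠ 0 := by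
    intro h0
    refine hgb.ne_zero ?_
    rw [← hug, eq_zero_of_emb_eq_zero hNp huu
      (isFixedBy_of_supported_centralizer (isSupportedOn_mono huC hCN)) h0, zero_mul]
  have hssupp : IsSupportedOn s Cb := by
    intro q hq
    rw [hs, hE, coeff_emb_mk]
    refine Finset.sum_eq_zero fun y _ => ?_
    by_cases hy : (y : G ⧸ N) = q
    · rw [if_pos hy, huC y fun h => hq (hy ▸ hCC1 h)]
    · rw [if_neg hy]
  have hsfix : IsFixedBy s Cb := by
    rw [isFixedBy_iff_conjA]
    intro c hc
    obtain ⟨t, rfl⟩ := QuotientGroup.mk'_surjective N c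
    show Blocks.conjA (t : G ⧸ N) s = s
    rw [hs, hE, ← emb_conjA_mk, isFixedBy_iff_conjA.mp hufix t hc]
  have hsblock : IsBlockIdem Cb s := by
    refine ⟨⟨hssupp, hsfix⟩, show s * s = s by rw [hs, ← map_mul, huu], hs0, fun i hi hii => ?_⟩
    obtain ⟨j, hjC, hjfix, hjj, hji⟩ := exists_lift hMp hNp hCN
      (fun t ht htr => hburn t ht htr) hi hii
    have hjCc : j ∈ centerIn (kres M) C := ⟨hjC, hjfix.mono hCC1⟩
    have hju : j * u = 0 ∨ j * u = u := by
      rcases hgb.2.2.2 j hjCc hjj with h | h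
      · left
        rw [hu, orbitSum, Finset.mul_sum]
        refine Finset.sum_eq_zero fun a ha => ?_
        obtain ⟨n, hn, rfl⟩ := mem_conjOrbit.mp ha
        rw [← isFixedBy_iff_conjA.mp hjfix n hn, ← map_mul, h, map_zero]
      · right
        rw [hu, orbitSum, Finset.mul_sum]
        refine Finset.sum_congr rfl fun a ha => ?_
        obtain ⟨n, hn, rfl⟩ := mem_conjOrbit.mp ha
        rw [← isFixedBy_iff_conjA.mp hjfix n hn, ← map_mul, h]
    rcases hju with h | h
    · left; rw [← hji, hs, hE, ← map_mul, h, map_zero]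
    · right; rw [← hji, hs, hE, ← map_mul, h]
  have hpair : IsPairIdem p ⊤ Db s := ⟨hDbp, le_top, by rwa [top_inf_eq]⟩
  obtain ⟨e', ⟨he', hpe'⟩, -⟩ := hpair.existsUnique_block
  obtain ⟨Bb, hBb, hBbe⟩ := exists_topEl_eq (M := M) he'
  subst hBbe
  set eq := E (topEl M B) with heq
  have heqs : eq * s = s := by rw [heq, hs, ← map_mul, heu]
  have heqC : eq ∈ centerIn (kres M) (⊤ : Subgroup (G ⧸ N)) := by
    refine ⟨isSupportedOn_top _, isFixedBy_iff_conjA.mpr fun c _ => ?_⟩
    obtain ⟨t, rfl⟩ := QuotientGroup.mk'_surjective N c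
    show Blocks.conjA (t : G ⧸ N) eq = eq
    rw [heq, hE, ← emb_conjA_mk, isFixedBy_iff_conjA.mp he.1.2 t (Subgroup.mem_top t)]
  have heqsupp : IsSupportedOn eq Cb := by
    intro q hq
    rw [heq, hE, coeff_emb_mk]
    refine Finset.sum_eq_zero fun y _ => ?_
    by_cases hy : (y : G ⧸ N) = q
    · rw [if_pos hy, hsupp y fun h => hq (hy ▸ hCC1 h)]
    · rw [if_neg hy]
  have hprod : topEl M Bb * eq = topEl M Bb := by
    rw [← (commute_centerIn heqC he'.1).eq]
    refine (he'.2.2.2 eq heqC (show eq * eq = eq by rw [heq, ← map_mul, he.idem])).resolve_left fun h0 => hs0 ?_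
    have h1 : brTrunc Db (eq * topEl M Bb) * s = s := by
      rw [brTrunc_mul hDbp (heqC.2.mono le_top) (he'.1.2.mono le_top), brTrunc_eq_self heqsupp,
        mul_assoc, show brTrunc Db (topEl M Bb) * s = s from hpe'.2, heqs]
    rw [h0, map_zero, zero_mul] at h1
    exact h1.symm
  have hsub := subset_below_of_mul hB hBb hprod
  have hDi := (isDefectGroup_topEl_iff hB D).mp hD
  -- the defect group of the block of the quotient
  have hne : brTrunc Db (topEl M Bb) ≠ 0 := by
    intro h0
    have h : brTrunc Db (topEl M Bb) * s = s := hpe'.2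
    rw [h0, zero_mul] at h
    exact hs0 h.symm
  obtain ⟨Dq, hDq⟩ := HeightZero.exists_defectGroup hMp hBb
  have hDqi := (isDefectGroup_topEl_iff hBb Dq).mp hDq
  obtain ⟨P, hP, hPle⟩ := Quot.exists_defectGroup_map hMp hB hBb hsub hDq
  have hPD : P = D := by
    obtain ⟨t, -, ht⟩ := ((isDefectGroup_topEl_iff hB P).mp hP).exists_conj_eq hDi
    rw [← map_conj_eq_self_of_mem_normalizer (D := D) (x := t⁻¹)
      (by rw [Subgroup.normalizer_eq_top_iff.mpr hDn]; exact Subgroup.mem_top _), ← ht,
      map_conj_map_conj, inv_mul_cancel, map_conj_one]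
  rw [hPD] at hP hPle
  have hDbi : IsDefectGroupIdem p ⊤ (topEl M Bb) Db :=
    IsDefectGroupIdem.of_card_le he'.1 hDqi le_top hDbp hne (Subgroup.card_le_of_le hPle)
  have hmax' : IsMaxPairIdem p ⊤ (topEl M Bb) Db s := ⟨hpe', fun R r hR hle => by
    refine (hDbi.eq_of_le hle.le hR.1.2.1 hR.1.1 fun h0 => ?_).symm
    have h1 : brTrunc R (topEl M Bb) * r = r := hR.2
    rw [h0, zero_mul] at h1
    exact hR.1.2.2.ne_zero h1.symm⟩
  -- degrees
  have hDbd : IsDefectGroup p M Bb Db := (isDefectGroup_topEl_iff hBb Db).mpr hDbi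
  haveI : IsMulCommutative Db := ⟨⟨fun a b => Subtype.ext (hDbab _ a.2 _ b.2)⟩⟩
  have hidx : Db.index = D.index := by
    exact Subgroup.index_map_eq _ (QuotientGroup.mk'_surjective N) (by
      rw [QuotientGroup.ker_mk']; exact hND)
  have hfac : ∀ {H : Type u} [Group H] [Finite H] (A : Subgroup H),
      (Nat.card H).factorization p = (Nat.card A).factorization p + A.index.factorization p := by
    intro H _ _ A
    rw [← Subgroup.card_mul_index A, Nat.factorization_mul Nat.card_pos.ne'
      Subgroup.index_ne_zero_of_finite, Finsupp.add_apply]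
  have hminb : HeightZero.minExp p Bb = Db.index.factorization p := by
    have h := minExp_add_of_defectGroup hMp hBb hDbd
    rw [hfac Db] at h
    omega
  have hmin : HeightZero.minExp p B = D.index.factorization p := by
    have h := minExp_add_of_defectGroup hMp hB hD
    rw [hfac D] at h
    omega
  have hheights : ∀ φ ∈ Bb,
      (charDegree ((φ : IrrCharacter (G ⧸ N)) : G ⧸ N → ℂ)).factorization p =
        Db.index.factorization p := by
    intro φ hφ
    refine le_antisymm ?_ (hminb ▸ HeightZero.minExp_le hφ)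
    exact ((Nat.factorization_le_iff_dvd (Chars.charDegree_pos φ).ne'
      Subgroup.index_ne_zero_of_finite).2 (Chars.Induced.ito Db φ)) p
  have hdegb : ∀ φ ∈ Bb, charDegree ((φ : IrrCharacter (G ⧸ N)) : G ⧸ N → ℂ) = d := by
    intro φ hφ
    have hc : charDegree (Chars.inflate N φ : G → ℂ) = charDegree (φ : G ⧸ N → ℂ) := by
      unfold charDegree
      rw [Chars.inflate_apply, QuotientGroup.mk_one]
    rw [← hc]
    refine hdeg _ (hsub hφ) ?_
    rw [HeightZero.blockHeight_eq_zero_iff' (show Chars.inflate N φ ∈ B from hsub hφ), hmin, hc, hheights φ hφ, hidx]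
  have hkey := pairStab_le_centralizer hMp hBb hDbd hDbab hdegb
    (fun φ hφ => by rw [HeightZero.blockHeight_eq_zero_iff' hφ, hminb, hheights φ hφ]) hmax'
  refine hkey (mem_pairStab.mpr ⟨⟨Subgroup.mem_top _, ?_⟩, ?_⟩)
  · rw [Subgroup.normalizer_eq_top_iff.mpr hDbn]; exact Subgroup.mem_top _
  · show Blocks.conjA (x : G ⧸ N) s = s
    rw [hs, hE, ← emb_conjA_mk]
    congr 1
    have hxg : Blocks.conjA x g = g := (mem_pairStab.mp hx).2
    rw [hu, orbitSum, map_sum]
    have hconj : ∀ n ∈ C1, x * n * x⁻¹ ∈ C1 := fun n hn =>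
      (inferInstance : C1.Normal).conj_mem n hn x
    refine Finset.sum_bij (fun a _ => Blocks.conjA x a) (fun a ha => ?_)
      (fun a _ b _ h => (Blocks.conjA x).injective h) (fun a ha => ?_) fun _ _ => rfl
    · obtain ⟨n, hn, rfl⟩ := mem_conjOrbit.mp ha
      refine mem_conjOrbit.mpr ⟨x * n * x⁻¹, hconj n hn, ?_⟩
      conv_lhs => rw [← hxg]
      rw [conjA_conjA, conjA_conjA]
      congr 1
      group
    · obtain ⟨n, hn, rfl⟩ := mem_conjOrbit.mp ha
      refine ⟨Blocks.conjA (x⁻¹ * n * x) g, mem_conjOrbit.mpr ⟨_, ?_, rfl⟩, ?_⟩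
      · have := (inferInstance : C1.Normal).conj_mem n hn x⁻¹
        simpa using this
      · rw [conjA_conjA, show x * (x⁻¹ * n * x) = n * x by group, ← conjA_conjA, hxg]

/-- **Equal degrees at height zero at a normal defect group: nilpotent.** -/
theorem isNilpotentBlock_of_normal (hMp : IsPModular p M) (hB : IsPBlock M B) (hDn : D.Normal)
    (hD : IsDefectGroup p M B D) {d : ℕ}
    (hdeg : ∀ χ ∈ B, blockHeight p B ((χ : IrrCharacter G) : G → ℂ) = 0 →
      charDegree (χ : G → ℂ) = d) : IsNilpotentBlock p M B := by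
  obtain ⟨g, hmax⟩ := exists_maxPair_of_defectGroup (isBlockIdem_topEl hB)
    ((isDefectGroup_topEl_iff hB D).mp hD)
  rw [isNilpotentIdem_top_iff hB]
  exact isNilpotentIdem_of_normal hDn (isBlockIdem_topEl hB) hmax fun x hx hxr =>
    mem_centralizer_of_degrees hMp hB hDn hD hdeg hmax hx hxr

/-- **The members of height zero of a nilpotent block have equal degrees.** -/
theorem exists_height_zero_degree (hMp : IsPModular p M) (hnil : IsNilpotentBlock p M B)
    (hD : IsDefectGroup p M B D) :
    ∃ d : ℕ, ∀ χ ∈ B, blockHeight p B ((χ : IrrCharacter G) : G → ℂ) = 0 →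
      charDegree (χ : G → ℂ) = d := by
  classical
  haveI := Fintype.ofFinite D
  have hDp : IsPGroup p D := ((isDefectGroup_topEl_iff hnil.1 D).mp hD).2.1
  obtain ⟨χ₀, hχ₀, h00⟩ := HeightZero.exists_height_zero (p := p) (M := M) hnil.1
  obtain ⟨Φ, hΦ⟩ := exists_equiv_of_nilpotent hMp hnil hD hχ₀ h00
  refine ⟨charDegree (χ₀ : G → ℂ), fun χ hχ h0 => ?_⟩
  have h1 : IsPRegular p (1 : G) := by
    show ¬ p ∣ orderOf (1 : G)
    rw [orderOf_one]; exact hp.out.not_dvd_one
  have h := hΦ (Φ.symm ⟨χ, hχ⟩) 1 h1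
  rw [Equiv.apply_symm_apply, ← Chars.coe_charDegree, ← Chars.coe_charDegree, ← Nat.cast_mul] at h
  set m := charDegree ((Φ.symm ⟨χ, hχ⟩ : IrrCharacter D) : D → ℂ) with hm
  have heq : charDegree (χ : G → ℂ) = m * charDegree (χ₀ : G → ℂ) := by exact_mod_cast h
  have hm0 : m ≠ 0 := (Chars.charDegree_pos _).ne'
  have hfac : m.factorization p = 0 := by
    have e1 := (HeightZero.blockHeight_eq_zero_iff' hχ).1 h0
    have e2 := (HeightZero.blockHeight_eq_zero_iff' hχ₀).1 h00
    rw [heq, Nat.factorization_mul hm0 (Chars.charDegree_pos χ₀).ne', Finsupp.add_apply, e2] at e1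
    omega
  obtain ⟨n, hn⟩ := IsPGroup.iff_card.mp hDp
  obtain ⟨i, -, hi⟩ := (Nat.dvd_prime_pow hp.out).mp (hn ▸ Chars.charDegree_dvd_card _ : m ∣ p ^ n)
  rw [hi, Nat.factorization_pow, Finsupp.smul_apply, hp.out.factorization_self, smul_eq_mul,
    mul_one] at hfac
  rw [heq, hi, hfac, pow_zero, one_mul]

end CfsgLib.Blocks.EqualDegree
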