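import Cfsg.Agent.Blocks.Modular.Block
import Cfsg.Agent.Blocks.Star.Nilpotent

/-!
# Blocks in which all degrees are equal

If every member of a block with defect group `P` has degree `d` and height zero, then a single
primitive idempotent is seen, once, by each member, the members agree on the regular elements and
there are `|P|` of them.
-/

set_option autoImplicit false
open scoped MonoidAlgebra
open MonoidAlgebra (single)

namespace CfsgLib.Blocks.EqualDegree

open Cfsg CfsgLib.Blocks CfsgLib.Blocks.Modular CfsgLib.Chars.Exceptional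
open scoped ComplexConjugate

universe u

variable {M : Ideal AlgInt} [hM : M.IsMaximal] {p : ℕ} [hp : Fact p.Prime] [CharP (kres M) p]
  {G : Type u} [Group G] [Fintype G]

/-- A projective character vanishes at the singular elements. -/
theorem sum_dec_mul_singular (S : IdemSys M G) (hMp : IsPModular p M) (c : Fin S.n) {x : G}
    (hx : ¬ IsPRegular p x) :
    ∑ θ : IrrCharacter G, S.dec (θ : G → ℂ) c * (θ : G → ℂ) x = 0 := by
  classical
  let L : (Fin S.n → ℂ) →ₗ[ℂ] ({g : G // IsPRegular p g} → ℂ) :=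
    { toFun := fun b g => ∑ e, b e * S.phi p e g
      map_add' := fun b b' => funext fun g => by simp [add_mul, Finset.sum_add_distrib]
      map_smul' := fun t b => funext fun g => by simp [Finset.mul_sum, mul_assoc] }
  have hker : LinearMap.ker L = ⊥ := LinearMap.ker_eq_bot'.2 fun b hb =>
    S.phi_indep hMp fun g hg => congrFun hb ⟨g, hg⟩
  obtain ⟨R, hR⟩ := L.exists_leftInverse_of_injective hker
  set T : {g : G // IsPRegular p g} → ℂ := fun g => R (Pi.single g 1) c
  have hdec : ∀ θ : IrrCharacter G, S.dec (θ : G → ℂ) c = ∑ g, T g * (θ : G → ℂ) g := by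
    intro θ
    have hL : L (fun e => S.dec (θ : G → ℂ) e) = ∑ g : {g : G // IsPRegular p g}, (θ : G → ℂ) g • (Pi.single g (1 : ℂ) : {g : G // IsPRegular p g} → ℂ) := by
      funext h
      show ∑ e : Fin S.n, _ = _
      rw [← S.apply_eq_sum hMp (Chars.isCharacter_coe θ) h.2]
      simp [Pi.single_apply]
    have h := congrFun (LinearMap.congr_fun hR (fun e => S.dec (θ : G → ℂ) e)) c
    rw [LinearMap.comp_apply, hL, LinearMap.id_apply, map_sum] at h
    rw [← h, Finset.sum_apply]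
    exact Finset.sum_congr rfl fun g _ => by rw [map_smul, Pi.smul_apply, smul_eq_mul, mul_comm]
  simp only [hdec, Finset.sum_mul, mul_assoc]
  rw [Finset.sum_comm]
  refine Finset.sum_eq_zero fun g _ => ?_
  rw [← Finset.mul_sum]
  have h := Chars.sum_irr_mul_conj (g : G) x⁻¹
  rw [Finset.sum_congr rfl fun θ _ => by
    rw [← Chars.map_inv_eq_conj (Chars.isCharacter_coe θ), inv_inv]] at h
  rw [h, if_neg, mul_zero]
  intro hc
  obtain ⟨a, ha⟩ := isConj_iff.1 hc
  refine hx ?_
  rw [IsPRegular, ← orderOf_inv, ← ha, show a * (g : G) * a⁻¹ = MulAut.conj a (g : G) from rfl,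
    MulEquiv.orderOf_eq]
  exact g.2

variable {B : Set (IrrCharacter G)} {P : Subgroup G} {d : ℕ}

/-- **The decomposition matrix is a column of ones.** -/
theorem exists_column (S : IdemSys M G) (hMp : IsPModular p M) (hB : IsPBlock M B)
    (hD : IsDefectGroup p M B P) (hPp : IsPGroup p P)
    (hdeg : ∀ χ ∈ B, charDegree (χ : G → ℂ) = d)
    (h0 : ∀ χ ∈ B, blockHeight p B ((χ : IrrCharacter G) : G → ℂ) = 0) :
    ∃ c : Fin S.n, (∀ χ ∈ B, S.dec ((χ : IrrCharacter G) : G → ℂ) c = 1) ∧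
      (∀ θ : IrrCharacter G, θ ∉ B → S.dec (θ : G → ℂ) c = 0) ∧
      (∀ χ ∈ B, ∀ e, e ≠ c → S.dec ((χ : IrrCharacter G) : G → ℂ) e = 0) ∧
      (∀ χ ∈ B, ∀ s : G, IsPRegular p s →
        ((χ : IrrCharacter G) : G → ℂ) s = S.phi p c s) ∧
      Nat.card B = Nat.card P := by
  classical
  choose m hm using fun (χ : IrrCharacter G) (e : Fin S.n) =>
    exists_nat_dec S (Chars.isCharacter_coe χ) e
  choose f hf0 hf using S.exists_phi_one (p := p) hMp
  obtain ⟨χ₀, hχ₀⟩ := nonempty_of_isPBlock hB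
  have hd0 : 0 < d := hdeg χ₀ hχ₀ ▸ Chars.charDegree_pos χ₀
  have hdiv : ∀ e ∈ S.cols B, d ≤ f e := by
    intro e he
    obtain ⟨b, hb⟩ := S.exists_int_block_comb (p := p) hMp hB he
    refine Nat.le_of_dvd (hf0 e) (Int.natCast_dvd_natCast.1 ⟨∑ χ ∈ B.toFinite.toFinset, b χ, ?_⟩)
    have h : (f e : ℂ) = (d : ℂ) * ((∑ χ ∈ B.toFinite.toFinset, b χ : ℤ) : ℂ) := by
      rw [← hf, hb]
      push_cast
      rw [Finset.mul_sum]
      refine Finset.sum_congr rfl fun χ hχ => ?_
      rw [← Chars.coe_charDegree, hdeg χ (B.toFinite.mem_toFinset.1 hχ), mul_comm]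
    exact_mod_cast h
  have hcols : ∀ χ ∈ B, ∀ e, m χ e ≠ 0 → e ∈ S.cols B := fun χ hχ e he =>
    Finset.mem_filter.2 ⟨Finset.mem_univ _, χ, hχ, by rw [hm]; exact_mod_cast he⟩
  have hrow : ∀ χ ∈ B, ∃ c, m χ c = 1 ∧ c ∈ S.cols B ∧ ∀ e, e ≠ c → m χ e = 0 := by
    intro χ hχ
    have hsum : d = ∑ e, m χ e * f e := by
      have h1 : IsPRegular p (1 : G) := by
        show ¬ p ∣ orderOf (1 : G)
        rw [orderOf_one]; exact hp.out.not_dvd_one
      have h := S.apply_eq_sum hMp (Chars.isCharacter_coe χ) h1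
      simp only [hm, hf, ← Chars.coe_charDegree, hdeg χ hχ] at h
      exact_mod_cast h
    obtain ⟨c, hc⟩ : ∃ c, m χ c ≠ 0 := by
      by_contra hcon
      simp only [not_exists, not_not] at hcon
      simp [hcon] at hsum
      omega
    have hfc := hdiv c (hcols χ hχ c hc)
    rw [← Finset.add_sum_erase _ _ (Finset.mem_univ c)] at hsum
    have h2 : d ≤ m χ c * f c := le_trans hfc (Nat.le_mul_of_pos_left _ (Nat.pos_of_ne_zero hc))
    refine ⟨c, ?_, hcols χ hχ c hc, fun e he => ?_⟩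
    · by_contra hne
      have h3 : 2 * f c ≤ m χ c * f c := Nat.mul_le_mul_right _ (by omega)
      have := hf0 c
      omega
    · have h3 : ∑ e ∈ Finset.univ.erase c, m χ e * f e = 0 := by omega
      have h4 := Finset.sum_eq_zero_iff.1 h3 e (Finset.mem_erase.2 ⟨he, Finset.mem_univ _⟩)
      exact (mul_eq_zero.1 h4).resolve_right (hf0 e).ne'
  choose col hcol1 hcolB hcol0 using hrow
  have hreg : ∀ χ (hχ : χ ∈ B), ∀ s : G, IsPRegular p s →
      ((χ : IrrCharacter G) : G → ℂ) s = S.phi p (col χ hχ) s := by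
    intro χ hχ s hs
    rw [S.apply_eq_sum hMp (Chars.isCharacter_coe χ) hs, Finset.sum_eq_single (col χ hχ)
      (fun e _ he => by rw [hm, hcol0 χ hχ e he, Nat.cast_zero, zero_mul]) (by simp), hm,
      hcol1, Nat.cast_one, one_mul]
  -- the pairing with a column
  have hpair : ∀ ψ (hψ : ψ ∈ B) (χ : IrrCharacter G),
      ((∑ θ, m θ (col ψ hψ) : ℕ) : ℂ) * HeightZero.regPair p (ψ : G → ℂ) (χ : G → ℂ) =
        (Nat.card G : ℂ) * (m χ (col ψ hψ) : ℂ) := by
    intro ψ hψ χ
    have hterm : ∀ θ : IrrCharacter G, ∀ x : G, IsPRegular p x →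
        (m θ (col ψ hψ) : ℂ) * (θ : G → ℂ) x = (m θ (col ψ hψ) : ℂ) * (ψ : G → ℂ) x := by
      intro θ x hx
      by_cases hz : m θ (col ψ hψ) = 0
      · rw [hz, Nat.cast_zero, zero_mul, zero_mul]
      · have hθ : θ ∈ B := by
          by_contra hθ
          have := S.dec_eq_zero_of_mem_cols hMp hB (hcolB ψ hψ) hθ
          rw [hm] at this
          exact hz (by exact_mod_cast this)
        have he : col θ hθ = col ψ hψ := by
          by_contra hne
          exact hz (hcol0 θ hθ _ (Ne.symm hne))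
        rw [hreg θ hθ x hx, hreg ψ hψ x hx, he]
    calc ((∑ θ, m θ (col ψ hψ) : ℕ) : ℂ) * HeightZero.regPair p (ψ : G → ℂ) (χ : G → ℂ)
        = ∑ x : G, (∑ θ : IrrCharacter G, S.dec (θ : G → ℂ) (col ψ hψ) * (θ : G → ℂ) x) *
            (χ : G → ℂ) x⁻¹ := by
          rw [HeightZero.regPair_eq_sum, Finset.mul_sum]
          refine Finset.sum_congr rfl fun x _ => ?_
          by_cases hx : p ∣ orderOf x
          · rw [if_pos hx, sum_dec_mul_singular S hMp _ (fun h => h hx), mul_zero, zero_mul]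
          · rw [if_neg hx, Nat.cast_sum, ← mul_assoc, Finset.sum_mul]
            congr 1
            exact Finset.sum_congr rfl fun θ _ => by rw [hm, hterm θ x hx]
      _ = ∑ θ : IrrCharacter G, (m θ (col ψ hψ) : ℂ) *
            ∑ x : G, (θ : G → ℂ) x * (χ : G → ℂ) x⁻¹ := by
          simp only [Finset.sum_mul, Finset.mul_sum, hm, mul_assoc]
          rw [Finset.sum_comm]
      _ = _ := by
          have hθ : ∀ θ : IrrCharacter G, ∑ x : G, (θ : G → ℂ) x * (χ : G → ℂ) x⁻¹ =
              (Nat.card G : ℂ) * classInner (θ : G → ℂ) (χ : G → ℂ) := by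
            intro θ
            rw [classInner, ← mul_assoc,
              mul_inv_cancel₀ (Nat.cast_ne_zero.2 Nat.card_pos.ne'), one_mul]
            exact Finset.sum_congr rfl fun x _ => by
              rw [Chars.map_inv_eq_conj (Chars.isCharacter_coe χ)]
          rw [Finset.sum_eq_single χ (fun θ _ h => by
            rw [hθ, Chars.classInner_of_ne h, mul_zero, mul_zero]) (by simp), hθ, Chars.classInner_self,
            mul_one, mul_comm]
  have hsame : ∀ χ (hχ : χ ∈ B) ψ (hψ : ψ ∈ B), col χ hχ = col ψ hψ := by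
    intro χ hχ ψ hψ
    by_contra hne
    have h := hpair ψ hψ χ
    rw [hcol0 χ hχ _ (Ne.symm hne), Nat.cast_zero, mul_zero, mul_eq_zero] at h
    rcases h with h | h
    · have h' : ∑ θ, m θ (col ψ hψ) = 0 := by exact_mod_cast h
      have := Finset.sum_eq_zero_iff.1 h' ψ (Finset.mem_univ _)
      rw [hcol1] at this
      exact one_ne_zero this
    · refine HeightZero.not_memLocalIdeal_regPair_of_height_zero hMp hB hψ (h0 ψ hψ) hχ ?_
      rw [h, zero_div]
      exact memLocalIdeal_zero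
  set c := col χ₀ hχ₀ with hc
  have hin : ∀ χ ∈ B, m χ c = 1 := fun χ hχ => by rw [hc, hsame χ₀ hχ₀ χ hχ, hcol1]
  have hout : ∀ θ : IrrCharacter G, θ ∉ B → m θ c = 0 := fun θ hθ => by
    have := S.dec_eq_zero_of_mem_cols hMp hB (hcolB χ₀ hχ₀) hθ
    rw [hm] at this
    exact_mod_cast this
  refine ⟨c, fun χ hχ => by rw [hm, hin χ hχ, Nat.cast_one],
    fun θ hθ => by rw [hm, hout θ hθ, Nat.cast_zero],
    fun χ hχ e he => by
      rw [hm, hcol0 χ hχ e (by rwa [← hsame χ₀ hχ₀ χ hχ]), Nat.cast_zero],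
    fun χ hχ s hs => by rw [hreg χ hχ s hs, ← hsame χ₀ hχ₀ χ hχ], ?_⟩
  -- the count
  have hk : ∑ θ, m θ c = Nat.card B := by
    rw [← Finset.sum_subset (Finset.subset_univ B.toFinite.toFinset) fun θ _ hθ =>
        hout θ fun h => hθ (B.toFinite.mem_toFinset.2 h),
      Finset.sum_congr rfl fun χ hχ => hin χ (B.toFinite.mem_toFinset.1 hχ), Finset.sum_const,
      smul_eq_mul, mul_one, Nat.card_coe_set_eq, Set.ncard_eq_toFinset_card B B.toFinite]
  have hle : Nat.card B ∣ Nat.card P := by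
    obtain ⟨T, hT, -, -, -, -⟩ := exists_height_zero_row hMp hB hD hχ₀ (h0 χ₀ hχ₀) hPp
    have h := hpair χ₀ hχ₀ χ₀
    rw [← hc, hk, hin χ₀ hχ₀, Nat.cast_one, mul_one] at h
    have h2 : (Nat.card P : ℂ) = (Nat.card B : ℂ) * (T χ₀ : ℂ) := by
      refine mul_left_cancel₀ (Nat.cast_ne_zero.2 (Nat.card_pos (α := G)).ne' : (Nat.card G : ℂ) ≠ 0) ?_
      linear_combination (-(Nat.card P : ℂ)) * h + (Nat.card B : ℂ) * hT χ₀
    refine Int.natCast_dvd_natCast.1 ⟨T χ₀, ?_⟩
    exact_mod_cast h2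
  refine Nat.dvd_antisymm hle ?_
  obtain ⟨N, hN, hNeq⟩ := S.exists_proj_degree (p := p) hMp c
  have hNk : N = Nat.card B * d := by
    rw [← hk, Finset.sum_mul]
    have h : (N : ℂ) = ((∑ θ, m θ c * d : ℕ) : ℂ) := by
      rw [← hNeq]
      push_cast
      refine Finset.sum_congr rfl fun θ _ => ?_
      rw [hm]
      by_cases hθ : θ ∈ B
      · rw [← Chars.coe_charDegree, hdeg θ hθ]
      · rw [hout θ hθ, Nat.cast_zero, zero_mul, zero_mul]
    exact_mod_cast h
  have hk0 : Nat.card B ≠ 0 := by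
    have : Nonempty B := ⟨⟨χ₀, hχ₀⟩⟩
    exact Nat.card_pos.ne'
  have hmin : HeightZero.minExp p B = d.factorization p := by
    rw [← hdeg χ₀ hχ₀]
    exact ((HeightZero.blockHeight_eq_zero_iff' hχ₀).1 (h0 χ₀ hχ₀)).symm
  have hA := minExp_add_of_defectGroup hMp hB hD
  rw [hNk] at hN
  have h3 := (hp.out.pow_dvd_iff_le_factorization (mul_ne_zero hk0 hd0.ne')).1 hN
  rw [Nat.factorization_mul hk0 hd0.ne', Finsupp.add_apply, ← hA, hmin] at h3
  rw [pGroup_card_factorization hp.out hPp]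
  exact (hp.out.pow_dvd_iff_le_factorization hk0).2 (by omega)

end CfsgLib.Blocks.EqualDegree
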